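import Cfsg.Agent.Modules.Thompson
import Mathlib.GroupTheory.Nilpotent
import Mathlib.GroupTheory.PGroup

/-!
An abelian subgroup `A` of largest order acting on a class-two group `C` by `x ↦ ⁅a, x⁆`:
identities, the replacement lemma, quadratic action on the central part `R`.
-/

set_option autoImplicit false

open scoped commutatorElement

namespace Cfsg.Agent.JTrans

variable {G : Type*} [Group G]

theorem mulL (a b x : G) : ⁅a * b, x⁆ = a * ⁅b, x⁆ * a⁻¹ * ⁅a, x⁆ := by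
  simp only [commutatorElement_def]; group

theorem mulR (a x y : G) : ⁅a, x * y⁆ = ⁅a, x⁆ * (x * ⁅a, y⁆ * x⁻¹) := by
  simp only [commutatorElement_def]; group

theorem conj_eq (a x : G) : a * x * a⁻¹ = ⁅a, x⁆ * x := by
  simp only [commutatorElement_def]; group

theorem mulL' (a b x : G) : ⁅a * b, x⁆ = ⁅a, ⁅b, x⁆⁆ * ⁅b, x⁆ * ⁅a, x⁆ := by
  rw [mulL, conj_eq a ⁅b, x⁆]

theorem commute_of_comm {x y : G} (h : ⁅x, y⁆ = 1) : x * y = y * x :=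
  commutatorElement_eq_one_iff_mul_comm.mp h

theorem comm_of_commute {x y : G} (h : x * y = y * x) : ⁅x, y⁆ = 1 :=
  commutatorElement_eq_one_iff_mul_comm.mpr h

theorem conj_of_commute {x y : G} (h : x * y = y * x) : x * y * x⁻¹ = y := by
  rw [h, mul_inv_cancel_right]

/-- A subgroup generated by commuting elements is abelian. -/
theorem comm_closure {s : Set G} (h : ∀ x ∈ s, ∀ y ∈ s, x * y = y * x) :
    IsMulCommutative (Subgroup.closure s) := by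
  have h1 : Subgroup.closure s ≤ Subgroup.centralizer s :=
    (Subgroup.closure_le _).mpr fun x hx =>
      Subgroup.mem_centralizer_iff.mpr fun y hy => h y hy x hx
  refine Modules.comm_iff.mpr fun a ha b hb => ?_
  have h2 : Subgroup.closure s ≤ Subgroup.centralizer ({a} : Set G) :=
    (Subgroup.closure_le _).mpr fun x hx => Subgroup.mem_centralizer_iff.mpr fun y hy => by
      rw [Set.mem_singleton_iff.mp hy]
      exact (Subgroup.mem_centralizer_iff.mp (h1 ha) x hx).symm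
  exact Subgroup.mem_centralizer_iff.mp (h2 hb) a rfl

/-- Descent along the lower central series of a `p`-group. -/
theorem descend [Finite G] {p : ℕ} [Fact p.Prime] {S H A : Subgroup G} (hS : IsPGroup p S)
    (hH : H ≤ S) (hAS : A ≤ S) (hcl : ∀ a ∈ A, ∀ x ∈ H, ⁅a, x⁆ ∈ H) {P : G → Prop}
    (h1 : P 1) (h : ∀ x ∈ H, (∀ a ∈ A, P ⁅a, x⁆) → P x) : ∀ x ∈ H, P x := by
  haveI := hS.isNilpotent
  obtain ⟨n, hn⟩ := (Subgroup.isNilpotent_iff_lowerCentralSeries (S := S)).mp inferInstance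
  have key : ∀ j k, j + k = n → ∀ x ∈ H, x ∈ S.lowerCentralSeries k → P x := by
    intro j
    induction j with
    | zero =>
      intro k hk x _ hx
      rw [show k = n by omega, hn, Subgroup.mem_bot] at hx
      rwa [hx]
    | succ j ih =>
      intro k hk x hxH hx
      refine h x hxH fun a ha => ih (k + 1) (by omega) _ (hcl a ha x hxH) ?_
      rw [Subgroup.lowerCentralSeries_succ, Subgroup.commutator_comm]
      exact Subgroup.commutator_mem_commutator (hAS ha) hx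
  exact fun x hx => key n 0 (by omega) x hx (by rw [Subgroup.lowerCentralSeries_zero]; exact hH hx)

/-- The setting. -/
structure Cfg (p : ℕ) (S Q C R A : Subgroup G) : Prop where
  odd : p ≠ 2
  pS : IsPGroup p S
  QS : Q ≤ S
  CQ : C ≤ Q
  RC : R ≤ C
  Cn : C.Normal
  Rn : R.Normal
  Rc : ∀ r ∈ R, ∀ q ∈ Q, r * q = q * r
  CC : ∀ x ∈ C, ∀ y ∈ C, ⁅x, y⁆ ∈ R
  CQz : ∀ q ∈ Q, ∀ x ∈ C, ∀ y ∈ C, ⁅q, x⁆ * y = y * ⁅q, x⁆
  hA : A ∈ Modules.maxAbIn S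
  amax : ∀ B ∈ Modules.maxAbIn S, ¬ B ≤ Q →
    Nat.card (B ⊓ R : Subgroup G) + Nat.card (B ⊓ C : Subgroup G) ≤
      Nat.card (A ⊓ R : Subgroup G) + Nat.card (A ⊓ C : Subgroup G)

namespace Cfg

variable {p : ℕ} {S Q C R A : Subgroup G} (h : Cfg p S Q C R A)

include h

theorem AS : A ≤ S := h.hA.1
theorem CS : C ≤ S := h.CQ.trans h.QS
theorem RQ : R ≤ Q := h.RC.trans h.CQ
theorem RS : R ≤ S := h.RQ.trans h.QS

theorem commA {a b : G} (ha : a ∈ A) (hb : b ∈ A) : a * b = b * a :=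
  Modules.comm_iff.mp h.hA.2.1 a ha b hb

theorem fixA {a x : G} (ha : a ∈ A) (hx : x ∈ A) : ⁅a, x⁆ = 1 := comm_of_commute (h.commA ha hx)

theorem conjC (g : G) {x : G} (hx : x ∈ C) : g * x * g⁻¹ ∈ C := h.Cn.conj_mem x hx g

theorem dC (a : G) {x : G} (hx : x ∈ C) : ⁅a, x⁆ ∈ C := by
  rw [commutatorElement_def]
  exact mul_mem (h.conjC a hx) (inv_mem hx)

theorem dR (a : G) {x : G} (hx : x ∈ R) : ⁅a, x⁆ ∈ R := by
  rw [commutatorElement_def]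
  exact mul_mem (h.Rn.conj_mem x hx a) (inv_mem hx)

theorem rC {r x : G} (hr : r ∈ R) (hx : x ∈ C) : r * x = x * r := h.Rc r hr x (h.CQ hx)

theorem rQ {q r : G} (hq : q ∈ Q) (hr : r ∈ R) : ⁅q, r⁆ = 1 := comm_of_commute (h.Rc r hr q hq).symm

theorem crC {x r : G} (hx : x ∈ C) (hr : r ∈ R) : ⁅x, r⁆ = 1 := h.rQ (h.CQ hx) hr

theorem rcC {x r : G} (hr : r ∈ R) (hx : x ∈ C) : ⁅r, x⁆ = 1 := comm_of_commute (h.rC hr hx)

theorem mulRC {x y z : G} (hx : x ∈ C) (hy : y ∈ C) (hz : z ∈ C) :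
    ⁅x, y * z⁆ = ⁅x, y⁆ * ⁅x, z⁆ := by
  rw [mulR, conj_of_commute (h.rC (h.CC x hx z hz) hy).symm]

theorem mulLC {x y z : G} (hx : x ∈ C) (hy : y ∈ C) (hz : z ∈ C) :
    ⁅x * y, z⁆ = ⁅x, z⁆ * ⁅y, z⁆ := by
  rw [mulL, conj_of_commute (h.rC (h.CC y hy z hz) hx).symm, h.rC (h.CC y hy z hz)
    (h.RC (h.CC x hx z hz))]

theorem invRC {x y : G} (hx : x ∈ C) (hy : y ∈ C) : ⁅x, y⁻¹⁆ = ⁅x, y⁆⁻¹ := by
  refine eq_inv_of_mul_eq_one_right ?_
  rw [← h.mulRC hx hy (inv_mem hy), mul_inv_cancel, commutatorElement_one_right]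

theorem invLC {x y : G} (hx : x ∈ C) (hy : y ∈ C) : ⁅x⁻¹, y⁆ = ⁅x, y⁆⁻¹ := by
  refine eq_inv_of_mul_eq_one_right ?_
  rw [← h.mulLC hx (inv_mem hx) hy, mul_inv_cancel, commutatorElement_one_left]

/-- `x ↦ ⁅a, x⁆` is additive on `R`. -/
theorem dmulR (a : G) {r x : G} (hr : r ∈ R) (hx : x ∈ C) : ⁅a, x * r⁆ = ⁅a, x⁆ * ⁅a, r⁆ := by
  rw [mulR, conj_of_commute (h.rC (h.dR a hr) hx).symm]

/-- The exact exchange rule. -/
theorem swap {a b z : G} (ha : a ∈ A) (hb : b ∈ A) (hz : z ∈ C) :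
    ⁅a, ⁅b, z⁆⁆ = ⁅b, ⁅a, z⁆⁆ * ⁅⁅a, z⁆, ⁅b, z⁆⁆ := by
  have e1 := mulL' a b z
  rw [h.commA ha hb, mulL'] at e1
  have e2 : ⁅b, ⁅a, z⁆⁆ * ⁅a, z⁆ * ⁅b, z⁆ =
      ⁅b, ⁅a, z⁆⁆ * ⁅⁅a, z⁆, ⁅b, z⁆⁆ * ⁅b, z⁆ * ⁅a, z⁆ := by
    simp only [commutatorElement_def]; group
  rw [e2] at e1
  exact mul_right_cancel (mul_right_cancel e1.symm)

/-- The exchange rule for a commutation with `w` in `C`. -/
theorem ident (a : G) {v w : G} (hv : v ∈ C) (hw : w ∈ C) :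
    ⁅⁅a, v⁆, w⁆ = a * ⁅v, ⁅a⁻¹, w⁆⁆ * a⁻¹ * ⁅a, ⁅v, w⁆⁆ := by
  have h1 : ⁅⁅a, v⁆, w⁆ = ⁅a * v * a⁻¹, w⁆ * ⁅v, w⁆⁻¹ := by
    rw [show ⁅a, v⁆ = a * v * a⁻¹ * v⁻¹ from rfl, h.mulLC (h.conjC a hv) (inv_mem hv) hw,
      h.invLC hv hw]
  have h2 : ⁅a * v * a⁻¹, w⁆ = a * ⁅v, ⁅a⁻¹, w⁆ * w⁆ * a⁻¹ := by
    simp only [commutatorElement_def]; group
  rw [h1, h2, h.mulRC hv (h.dC a⁻¹ hw) hw]
  simp only [commutatorElement_def]; group

theorem inv_ident (a w : G) : ⁅a, ⁅a⁻¹, w⁆⁆ * ⁅a⁻¹, w⁆ * ⁅a, w⁆ = 1 := by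
  rw [← mulL', mul_inv_cancel, commutatorElement_one_left]

variable [Finite G] [Fact p.Prime]

theorem mem_A {x : G} (hx : x ∈ S) (hfix : ∀ a ∈ A, ⁅a, x⁆ = 1) : x ∈ A :=
  Modules.mem_maxAbIn_of_centralizing h.hA hx
    (Subgroup.mem_centralizer_iff.mpr fun a ha => commute_of_comm (hfix a ha))

theorem odd_order {x : G} (hx : x ∈ S) : ∃ k : ℕ, (x ^ 2) ^ k = x := by
  obtain ⟨n, hn⟩ := h.pS ⟨x, hx⟩
  have hn' : x ^ p ^ n = 1 := congrArg Subtype.val hn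
  obtain ⟨k, hk⟩ := ((Fact.out : p.Prime).odd_of_ne_two h.odd).pow (n := n)
  refine ⟨k + 1, ?_⟩
  rw [← pow_mul, show 2 * (k + 1) = p ^ n + 1 by omega, pow_succ, hn', one_mul]

theorem mem_of_sq {H : Subgroup G} {x : G} (hx : x ∈ S) (h2 : x ^ 2 ∈ H) : x ∈ H := by
  obtain ⟨k, hk⟩ := h.odd_order hx
  exact hk ▸ pow_mem h2 k

/-- The elements of `A` commuting with every `⁅b, z⁆`. -/
def Cz (A : Subgroup G) (z : G) : Subgroup G :=
  A ⊓ Subgroup.centralizer {x : G | ∃ b ∈ A, ⁅b, z⁆ = x}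

omit h in
theorem mem_Cz {z c : G} : c ∈ Cz A z ↔ c ∈ A ∧ ∀ b ∈ A, ⁅c, ⁅b, z⁆⁆ = 1 := by
  simp only [Cz, Subgroup.mem_inf, Subgroup.mem_centralizer_iff, Set.mem_setOf_eq]
  exact and_congr_right fun _ => ⟨fun hc b hb => comm_of_commute (hc _ ⟨b, hb, rfl⟩).symm,
    fun hc x ⟨b, hb, e⟩ => e ▸ (commute_of_comm (hc b hb)).symm⟩

/-- The subgroup replacing `A`. -/
def repl (A : Subgroup G) (z : G) : Subgroup G :=
  Subgroup.closure ({x : G | ∃ b ∈ A, ⁅b, z⁆ = x} ∪ (Cz A z : Set G))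

/-- A coset of `Cz` in `D ≤ A` is determined by `⁅a, z⁆` modulo `Cz`. -/
theorem card_le {z : G} (hz : z ∈ C) (hcomm : ∀ a ∈ A, ∀ b ∈ A, ⁅⁅a, z⁆, ⁅b, z⁆⁆ = 1)
    {D Y : Subgroup G} (hD : D ≤ A) (hY : Cz A z ⊓ D ≤ Y) (hDY : ∀ a ∈ D, ⁅a, z⁆ ∈ Y) :
    Nat.card D ≤ Nat.card Y := by
  set E := Cz A z ⊓ D with hE
  have hEA : E ≤ A := inf_le_right.trans hD
  set f : D ⧸ E.subgroupOf D → Y ⧸ E.subgroupOf Y := fun q =>
    QuotientGroup.mk ⟨⁅((q.out : D) : G), z⁆, hDY _ q.out.2⟩ with hf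
  have hfinj : Function.Injective f := by
    intro q q' hqq
    simp only [hf, QuotientGroup.eq, Subgroup.mem_subgroupOf] at hqq
    rw [← QuotientGroup.out_eq' q, ← QuotientGroup.out_eq' q', QuotientGroup.eq,
      Subgroup.mem_subgroupOf]
    set a := ((q.out : D) : G)
    set a' := ((q'.out : D) : G)
    have ha : a ∈ A := hD q.out.2
    have ha' : a' ∈ A := hD q'.out.2
    simp only [Subgroup.coe_mul, Subgroup.coe_inv] at hqq ⊢
    set k := a⁻¹ * a' with hk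
    have hkA : k ∈ A := mul_mem (inv_mem ha) ha'
    have hkD : k ∈ D := mul_mem (inv_mem q.out.2) q'.out.2
    have e := mulL a k z
    rw [show a * k = a' by rw [hk, mul_inv_cancel_left]] at e
    have h1 : a * ⁅k, z⁆ * a⁻¹ ∈ A := by
      have h2 : ⁅a', z⁆ * ⁅a, z⁆⁻¹ ∈ A := by
        have hc : ⁅a, z⁆⁻¹ * ⁅a', z⁆ = ⁅a', z⁆ * ⁅a, z⁆⁻¹ :=
          (Commute.inv_left (commute_of_comm (hcomm a ha a' ha') : Commute _ _)).eq
        rw [← hc]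
        exact hEA hqq
      rwa [e, mul_inv_cancel_right] at h2
    have h3 : ⁅k, z⁆ ∈ A := by
      have := mul_mem (mul_mem (inv_mem ha) h1) ha
      simpa [mul_assoc] using this
    refine ⟨mem_Cz.mpr ⟨hkA, fun b hb => ?_⟩, hkD⟩
    rw [h.swap hkA hb hz, hcomm k hkA b hb, mul_one, h.fixA hb h3]
  have h1 := Subgroup.card_eq_card_quotient_mul_card_subgroup (E.subgroupOf D)
  have h2 := Subgroup.card_eq_card_quotient_mul_card_subgroup (E.subgroupOf Y)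
  rw [Nat.card_congr (Subgroup.subgroupOfEquivOfLe (inf_le_right : E ≤ D)).toEquiv] at h1
  rw [Nat.card_congr (Subgroup.subgroupOfEquivOfLe hY).toEquiv] at h2
  rw [h1, h2]
  exact Nat.mul_le_mul_right _ (Nat.card_le_card_of_injective f hfinj)

theorem repl_mem {z : G} (hz : z ∈ C) (hcomm : ∀ a ∈ A, ∀ b ∈ A, ⁅⁅a, z⁆, ⁅b, z⁆⁆ = 1) :
    repl A z ∈ Modules.maxAbIn S := by
  have hle : repl A z ≤ S := (Subgroup.closure_le _).mpr (by
    rintro x (⟨b, hb, rfl⟩ | hx)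
    · exact h.CS (h.dC b hz)
    · exact h.AS (mem_Cz.mp hx).1)
  have hab : IsMulCommutative (repl A z) := comm_closure (by
    rintro x (⟨a, ha, rfl⟩ | hx) y (⟨b, hb, rfl⟩ | hy)
    · exact commute_of_comm (hcomm a ha b hb)
    · exact (commute_of_comm ((mem_Cz.mp hy).2 a ha)).symm
    · exact commute_of_comm ((mem_Cz.mp hx).2 b hb)
    · exact h.commA (mem_Cz.mp hx).1 (mem_Cz.mp hy).1)
  refine ⟨hle, hab, fun B hB hB' => (h.hA.2.2 B hB hB').trans ?_⟩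
  exact h.card_le hz hcomm le_rfl (inf_le_left.trans fun x hx => Subgroup.subset_closure (Or.inr hx))
    fun a ha => Subgroup.subset_closure (Or.inl ⟨a, ha, rfl⟩)

theorem cz_le_Q {z : G} (hz : z ∈ C) (hcomm : ∀ a ∈ A, ∀ b ∈ A, ⁅⁅a, z⁆, ⁅b, z⁆⁆ = 1)
    (hnot : ∃ b ∈ A, ⁅b, z⁆ ∉ A) : Cz A z ≤ Q := by
  intro c hc
  by_contra hcQ
  set X := repl A z with hX
  have hX' := h.repl_mem hz hcomm
  have hCzX : Cz A z ≤ X := fun x hx => Subgroup.subset_closure (Or.inr hx)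
  have hMX : ∀ a ∈ A, ⁅a, z⁆ ∈ X := fun a ha => Subgroup.subset_closure (Or.inl ⟨a, ha, rfl⟩)
  have hmax := h.amax X hX' fun hle => hcQ (hle (hCzX hc))
  have hAR : A ⊓ R ≤ X ⊓ R := fun x hx =>
    ⟨hCzX (mem_Cz.mpr ⟨hx.1, fun b hb => h.rcC hx.2 (h.dC b hz)⟩), hx.2⟩
  set Y := (X ⊓ R) ⊔ (Cz A z ⊓ C) with hY
  have hYX : Y ≤ X ⊓ C := sup_le (inf_le_inf_left _ h.RC) (inf_le_inf_right _ hCzX)
  have hcardY : Nat.card (A ⊓ C : Subgroup G) ≤ Nat.card Y :=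
    h.card_le hz hcomm inf_le_left
      (le_trans (le_inf inf_le_left (inf_le_right.trans inf_le_right)) le_sup_right)
      fun a ha => Subgroup.mem_sup_left ⟨hMX a ha.1, h.CC a ha.2 z hz⟩
  have hc1 : Nat.card (A ⊓ R : Subgroup G) ≤ Nat.card (X ⊓ R : Subgroup G) :=
    Subgroup.card_le_of_le hAR
  have hc2 : Nat.card Y ≤ Nat.card (X ⊓ C : Subgroup G) := Subgroup.card_le_of_le hYX
  have e1 : A ⊓ R = X ⊓ R := Subgroup.eq_of_le_of_card_ge hAR (by omega)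
  have e2 : Y = X ⊓ C := Subgroup.eq_of_le_of_card_ge hYX (by omega)
  obtain ⟨b, hb, hbA⟩ := hnot
  have hbY : ⁅b, z⁆ ∈ Y := e2 ▸ ⟨hMX b hb, h.dC b hz⟩
  exact hbA ((sup_le (e1.ge.trans inf_le_left) (inf_le_left.trans fun x hx => (mem_Cz.mp hx).1) :
    Y ≤ A) hbY)

/-- `A` acts quadratically on `R`. -/
theorem quadR {r : G} (hr : r ∈ R) {a : G} (ha : a ∈ A) : ⁅a, r⁆ ∈ A := by
  suffices key : ∀ r ∈ R, ∀ a ∈ A, ⁅a, r⁆ ∈ A from key r hr a ha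
  clear hr ha r a
  refine descend (P := fun r => ∀ a ∈ A, ⁅a, r⁆ ∈ A) h.pS h.RS h.AS
    (fun a _ x hx => h.dR a hx) (fun a _ => by rw [commutatorElement_one_right]; exact one_mem _)
    (fun x hx hall => ?_)
  by_contra hno
  push Not at hno
  obtain ⟨b, hb, hbA⟩ := hno
  have hxC := h.RC hx
  have hcomm : ∀ a ∈ A, ∀ b ∈ A, ⁅⁅a, x⁆, ⁅b, x⁆⁆ = 1 := fun a _ b _ =>
    h.rcC (h.dR a hx) (h.dC b hxC)
  have hCQ := h.cz_le_Q hxC hcomm ⟨b, hb, hbA⟩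
  have hX' := h.repl_mem hxC hcomm
  have hXQ : repl A x ≤ Q := (Subgroup.closure_le _).mpr (by
    rintro y (⟨c, hc, rfl⟩ | hy)
    · exact h.RQ (h.dR c hx)
    · exact hCQ hy)
  have hxX : x ∈ repl A x := Modules.mem_maxAbIn_of_centralizing hX' (h.RS hx)
    (Subgroup.mem_centralizer_iff.mpr fun y hy => (h.Rc x hx y (hXQ hy)).symm)
  let K : Subgroup G :=
    { carrier := {y | y ∈ R ∧ ∀ c ∈ A, ⁅c, y⁆ ∈ A}
      one_mem' := ⟨one_mem _, fun c _ => by rw [commutatorElement_one_right]; exact one_mem _⟩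
      mul_mem' := fun {y y'} hy hy' => ⟨mul_mem hy.1 hy'.1, fun c hc => by
        rw [h.dmulR c hy'.1 (h.RC hy.1)]
        exact mul_mem (hy.2 c hc) (hy'.2 c hc)⟩
      inv_mem' := fun {y} hy => ⟨inv_mem hy.1, fun c hc => by
        have e : ⁅c, y⁻¹⁆ = ⁅c, y⁆⁻¹ := eq_inv_of_mul_eq_one_right (by
          rw [← h.dmulR c (inv_mem hy.1) (h.RC hy.1), mul_inv_cancel, commutatorElement_one_right])
        rw [e]
        exact inv_mem (hy.2 c hc)⟩ }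
  have hle : repl A x ≤ K ⊔ Cz A x := (Subgroup.closure_le _).mpr (by
    rintro y (⟨c, hc, rfl⟩ | hy)
    · exact Subgroup.mem_sup_left ⟨h.dR c hx, fun d hd => hall c hc d hd⟩
    · exact Subgroup.mem_sup_right hy)
  have hKn : Cz A x ≤ Subgroup.normalizer (K : Set G) := fun c hc =>
    Subgroup.mem_normalizer_iff.mpr fun y => by
      have hcQ : c ∈ Q := hCQ hc
      constructor
      · intro hy
        rwa [conj_of_commute (h.Rc y hy.1 c hcQ).symm]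
      · intro hy
        have h1 := h.Rc _ hy.1 _ (inv_mem hcQ)
        have : y = c * y * c⁻¹ := by
          calc y = c⁻¹ * (c * y * c⁻¹) * c := by group
            _ = c * y * c⁻¹ * c⁻¹ * c := by rw [← h1]
            _ = _ := by group
        exact this ▸ hy
  have hx' : x ∈ ((K ⊔ Cz A x : Subgroup G) : Set G) := hle hxX
  rw [Subgroup.coe_mul_of_right_le_normalizer_left K (Cz A x) hKn] at hx'
  obtain ⟨y, hy, c, hc, hyc⟩ := hx'
  dsimp only at hyc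
  have hcA := (mem_Cz.mp hc).1
  apply hbA
  rw [← hyc, mulR, h.fixA hb hcA, mul_one, mul_inv_cancel, mul_one]
  exact hy.2 b hb

theorem quadR1 {r : G} (hr : r ∈ R) {a b : G} (ha : a ∈ A) (hb : b ∈ A) : ⁅a, ⁅b, r⁆⁆ = 1 :=
  h.fixA ha (h.quadR hr hb)

end Cfg

end Cfsg.Agent.JTrans
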