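import Cfsg.Agent.JTrans.Twist

/-!
`A` acts with bound three on the chief factors inside `Z(C)` and with bound four on `C / Z(C)`.
-/

set_option autoImplicit false
set_option linter.unusedSectionVars false

open scoped commutatorElement

namespace Cfsg.Agent.JTrans

variable {G : Type*} [Group G]

/-- `k`-fold images `⁅a₁, …, ⁅aₖ, v⁆⁆` of elements of `C`. -/
def Im (A C : Subgroup G) : ℕ → G → Prop
  | 0, w => w ∈ C
  | k + 1, w => ∃ a ∈ A, ∃ v, Im A C k v ∧ ⁅a, v⁆ = w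

namespace Cfg

variable {p : ℕ} {S Q C R A : Subgroup G} [Finite G] [Fact p.Prime] (h : Cfg p S Q C R A)

include h

theorem seed_of_central {u : G} (hu : u ∈ C) (hz : ∀ y ∈ C, u * y = y * u) : Seed C A u :=
  ⟨hu, fun a _ b _ c _ => comm_of_commute (hz _ (h.dC a (h.dC b (h.dC c hu))))⟩

/-- Bound three on a chief factor inside the centre of `C`. -/
theorem degree_center {U V : Subgroup G} [U.Normal] [V.Normal] (hVU : V ≤ U)
    (hmin : ∀ K : Subgroup G, K.Normal → V ≤ K → K ≤ U → K = V ∨ K = U)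
    (hUC : U ≤ C) (hz : ∀ u ∈ U, ∀ y ∈ C, u * y = y * u)
    (hcen : ∀ x ∈ Q, ∀ v ∈ U, ⁅x, v⁆ ∈ V) {u : G} (hu : u ∈ U) {a b c : G} (ha : a ∈ A)
    (hb : b ∈ A) (hc : c ∈ A) : ⁅a, ⁅b, ⁅c, u⁆⁆⁆ ∈ V := by
  haveI := h.Rn
  have hdV : ∀ (g : G) {x : G}, x ∈ V → ⁅g, x⁆ ∈ V := fun g x hx => by
    rw [commutatorElement_def]
    exact mul_mem ((inferInstance : V.Normal).conj_mem x hx g) (inv_mem hx)
  have hdU : ∀ (g : G) {x : G}, x ∈ U → ⁅g, x⁆ ∈ U := fun g x hx => by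
    rw [commutatorElement_def]
    exact mul_mem ((inferInstance : U.Normal).conj_mem x hx g) (inv_mem hx)
  by_cases hRU : U ⊓ R ≤ V
  · have hseed := h.seed_of_central (hUC hu) (hz u hu)
    have hw := h.core hseed hb hc
    have hle : G0 Q C R A u ≤ (V ⊔ R) ⊔ (A ⊓ C) := by
      refine sup_le (sup_le ?_ (le_sup_right.trans le_sup_left)) le_sup_right
      refine (Subgroup.closure_le _).mpr ?_
      rintro x ⟨y, hy, rfl⟩
      exact Subgroup.mem_sup_left (Subgroup.mem_sup_left (hcen y hy.2 u hu))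
    have hw' : ⁅b, ⁅c, u⁆⁆ ∈ ((V ⊔ R ⊔ (A ⊓ C) : Subgroup G) : Set G) := hle hw
    haveI : (V ⊔ R).Normal := Subgroup.sup_normal V R
    rw [Subgroup.normal_mul] at hw'
    obtain ⟨y, hy, n, hn, e⟩ := hw'
    have hy' : y ∈ ((V ⊔ R : Subgroup G) : Set G) := hy
    rw [Subgroup.normal_mul] at hy'
    obtain ⟨v, hv, r, hr, e'⟩ := hy'
    dsimp only at e e'
    have e1 : ⁅a, ⁅b, ⁅c, u⁆⁆⁆ = ⁅a, v⁆ * (v * ⁅a, r⁆ * v⁻¹) := by
      rw [← e, mulR, h.fixA ha hn.1, mul_one, mul_inv_cancel, mul_one, ← e', mulR]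
    have h1 : ⁅a, v⁆ * (v * ⁅a, r⁆ * v⁻¹) ∈ U := e1 ▸ hdU a (hdU b (hdU c hu))
    have h2 : v * ⁅a, r⁆ * v⁻¹ ∈ U := by
      have := mul_mem (inv_mem (hVU (hdV a hv))) h1
      rwa [inv_mul_cancel_left] at this
    have h3 : ⁅a, r⁆ ∈ U := by
      have := mul_mem (mul_mem (inv_mem (hVU hv)) h2) (hVU hv)
      simpa [mul_assoc] using this
    rw [e1]
    exact mul_mem (hdV a hv) ((inferInstance : V.Normal).conj_mem _ (hRU ⟨h3, h.dR a hr⟩) v)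
  · have hK : (U ⊓ R) ⊔ V = U :=
      (hmin _ (Subgroup.sup_normal _ _) le_sup_right (sup_le inf_le_left hVU)).resolve_left
        fun e => hRU (le_sup_left.trans e.le)
    have hu' : ⁅c, u⁆ ∈ ((U ⊓ R ⊔ V : Subgroup G) : Set G) := hK.ge (hdU c hu)
    rw [Subgroup.mul_normal] at hu'
    obtain ⟨r, hr, v, hv, e⟩ := hu'
    dsimp only at e
    rw [← e, mulR, mulR, h.fixA ha (h.quadR hr.2 hb), one_mul]
    exact (inferInstance : V.Normal).conj_mem _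
      (hdV a ((inferInstance : V.Normal).conj_mem _ (hdV b hv) r)) _

/-! ### The factor `C / Z(C)` -/

theorem R_le_ZC : R ≤ C ⊓ Subgroup.centralizer (C : Set G) := fun r hr =>
  ⟨h.RC hr, Subgroup.mem_centralizer_iff.mpr fun y hy => (h.rC hr hy).symm⟩

theorem dZC (a : G) {z : G} (hz : z ∈ C ⊓ Subgroup.centralizer (C : Set G)) :
    ⁅a, z⁆ ∈ C ⊓ Subgroup.centralizer (C : Set G) := by
  haveI := h.Cn
  rw [commutatorElement_def]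
  exact mul_mem ((inferInstance : (C ⊓ Subgroup.centralizer (C : Set G)).Normal).conj_mem z hz a)
    (inv_mem hz)

/-- Congruence modulo the centre of `C` is preserved by `x ↦ ⁅a, x⁆`. -/
theorem d_congr (a : G) {x y : G} (hx : x ∈ C)
    (hxy : x⁻¹ * y ∈ C ⊓ Subgroup.centralizer (C : Set G)) :
    ⁅a, x⁆⁻¹ * ⁅a, y⁆ ∈ C ⊓ Subgroup.centralizer (C : Set G) := by
  have e := mulR a x (x⁻¹ * y)
  rw [mul_inv_cancel_left] at e
  rw [e, inv_mul_cancel_left,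
    conj_of_commute (Subgroup.mem_centralizer_iff.mp (h.dZC a hxy).2 x hx)]
  exact h.dZC a hxy

theorem omega_congr {u x y : G} (hu : u ∈ C) (hx : x ∈ C)
    (hxy : x⁻¹ * y ∈ C ⊓ Subgroup.centralizer (C : Set G)) : ⁅u, x⁆ = ⁅u, y⁆ := by
  conv_rhs => rw [← mul_inv_cancel_left x y]
  rw [h.mulRC hu hx hxy.1, comm_of_commute (Subgroup.mem_centralizer_iff.mp hxy.2 u hu), mul_one]

theorem swapZ {a b v : G} (ha : a ∈ A) (hb : b ∈ A) (hv : v ∈ C) :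
    ⁅a, ⁅b, v⁆⁆⁻¹ * ⁅b, ⁅a, v⁆⁆ ∈ C ⊓ Subgroup.centralizer (C : Set G) := by
  rw [h.swap hb ha hv, inv_mul_cancel_left]
  exact h.R_le_ZC (h.CC _ (h.dC b hv) _ (h.dC a hv))

theorem im_C {k : ℕ} {w : G} (hw : Im A C k w) : w ∈ C := by
  induction k generalizing w with
  | zero => exact hw
  | succ k ih => obtain ⟨a, -, v, hv, rfl⟩ := hw; exact h.dC a (ih hv)

theorem im_succ {k : ℕ} {w : G} (hw : Im A C (k + 1) w) : Im A C k w := by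
  induction k generalizing w with
  | zero => exact h.im_C hw
  | succ k ih =>
    obtain ⟨a, ha, v, hv, rfl⟩ := hw
    exact ⟨a, ha, v, ih hv, rfl⟩

theorem im_mono {k l : ℕ} (hkl : k ≤ l) {w : G} (hw : Im A C l w) : Im A C k w := by
  induction hkl with
  | refl => exact hw
  | step _ ih => exact ih (h.im_succ hw)

theorem im_lcs {k : ℕ} {w : G} (hw : Im A C k w) : w ∈ S.lowerCentralSeries k := by
  induction k generalizing w with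
  | zero => rw [Subgroup.lowerCentralSeries_zero]; exact h.CS hw
  | succ k ih =>
    obtain ⟨a, ha, v, hv, rfl⟩ := hw
    rw [Subgroup.lowerCentralSeries_succ, Subgroup.commutator_comm]
    exact Subgroup.commutator_mem_commutator (h.AS ha) (ih hv)

/-- From a seed: three operations land in the centre of `C`. -/
theorem three_of_seed {v : G} (hv : Seed C A v) {a b c : G} (ha : a ∈ A) (hb : b ∈ A)
    (hc : c ∈ A) : ⁅a, ⁅b, ⁅c, v⁆⁆⁆ ∈ C ⊓ Subgroup.centralizer (C : Set G) := by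
  haveI := h.Cn
  set Z := C ⊓ Subgroup.centralizer (C : Set G) with hZ
  have hle : G0 Q C R A v ≤ Z ⊔ (A ⊓ C) := by
    refine sup_le (sup_le ?_ (h.R_le_ZC.trans le_sup_left)) le_sup_right
    refine (Subgroup.closure_le _).mpr ?_
    rintro x ⟨y, hy, rfl⟩
    exact Subgroup.mem_sup_left ⟨h.d1C hv y, Subgroup.mem_centralizer_iff.mpr fun t ht =>
      (h.z0_central hv hy ht).symm⟩
  have hw' : ⁅b, ⁅c, v⁆⁆ ∈ ((Z ⊔ (A ⊓ C) : Subgroup G) : Set G) := hle (h.core hv hb hc)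
  rw [Subgroup.normal_mul] at hw'
  obtain ⟨z, hz, n, hn, e⟩ := hw'
  dsimp only at e
  rw [← e, mulR, h.fixA ha hn.1, mul_one, mul_inv_cancel, mul_one]
  exact h.dZC a hz

theorem pair {n : ℕ} (hn : ∀ w, Im A C (n + 1) w → w ∈ C ⊓ Subgroup.centralizer (C : Set G))
    (i : ℕ) : ∀ (j : ℕ) (v w : G), Im A C i v → Im A C j w →
      (n + 1 ≤ i + j → ⁅v, w⁆ ∈ A) ∧ (n + 2 ≤ i + j → ⁅v, w⁆ = 1) := by
  induction i with
  | zero =>
    intro j v w hv hw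
    have key : n + 1 ≤ j → ⁅v, w⁆ = 1 := fun hj => comm_of_commute
      (Subgroup.mem_centralizer_iff.mp (hn w (h.im_mono hj hw)).2 v (h.im_C hv))
    exact ⟨fun hj => by rw [key (by omega)]; exact one_mem _, fun hj => key (by omega)⟩
  | succ i ih =>
    intro j v w hv hw
    obtain ⟨a, ha, v', hv', rfl⟩ := hv
    have hvC := h.im_C hv'
    have hwC := h.im_C hw
    have h1 := ih (j + 1) v' ⁅a⁻¹, w⁆ hv' ⟨a⁻¹, inv_mem ha, w, hw, rfl⟩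
    have h2 := ih j v' w hv' hw
    rw [h.ident a hvC hwC]
    refine ⟨fun hij => mul_mem ?_ (h.quadR (h.CC _ hvC _ hwC) ha), fun hij => ?_⟩
    · exact mul_mem (mul_mem ha (h1.1 (by omega))) (inv_mem ha)
    · rw [h1.2 (by omega), h.fixA ha (h2.1 (by omega))]
      group

theorem four_step (hn : ∀ w, Im A C 5 w → w ∈ C ⊓ Subgroup.centralizer (C : Set G)) {w : G}
    (hw : Im A C 4 w) : w ∈ C ⊓ Subgroup.centralizer (C : Set G) := by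
  obtain ⟨a, ha, _, ⟨b, hb, _, ⟨c, hc, _, ⟨e, he, u, hu, rfl⟩, rfl⟩, rfl⟩, rfl⟩ := hw
  have hu' : u ∈ C := hu
  refine h.three_of_seed (v := ⁅e, u⁆) ⟨h.dC e hu', ?_⟩ ha hb hc
  intro a ha b hb c hc
  have hIm4 : ∀ {a b c e : G}, a ∈ A → b ∈ A → c ∈ A → e ∈ A →
      Im A C 4 ⁅a, ⁅b, ⁅c, ⁅e, u⁆⁆⁆⁆ := fun {a b c e} ha hb hc he =>
    ⟨a, ha, _, ⟨b, hb, _, ⟨c, hc, _, ⟨e, he, u, hu, rfl⟩, rfl⟩, rfl⟩, rfl⟩
  have hC1 : ∀ x : G, ⁅x, u⁆ ∈ C := fun x => h.dC x hu'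
  have hC2 : ∀ x y : G, ⁅x, ⁅y, u⁆⁆ ∈ C := fun x y => h.dC x (hC1 y)
  have hC3 : ∀ x y z : G, ⁅x, ⁅y, ⁅z, u⁆⁆⁆ ∈ C := fun x y z => h.dC x (hC2 y z)
  have hC4 : ∀ x y z t : G, ⁅x, ⁅y, ⁅z, ⁅t, u⁆⁆⁆⁆ ∈ C := fun x y z t => h.dC x (hC3 y z t)
  let f : G → G → G → G → G := fun a b c e => ⁅u, ⁅a, ⁅b, ⁅c, ⁅e, u⁆⁆⁆⁆⁆
  have s12 : ∀ {a b c e : G}, a ∈ A → b ∈ A → f a b c e = f b a c e := fun {a b c e} ha hb =>
    h.omega_congr hu' (hC4 _ _ _ _) (h.swapZ ha hb (hC2 c e))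
  have s23 : ∀ {a b c e : G}, b ∈ A → c ∈ A → f a b c e = f a c b e := fun {a b c e} hb hc =>
    h.omega_congr hu' (hC4 _ _ _ _) (h.d_congr a (hC3 _ _ _) (h.swapZ hb hc (hC1 e)))
  have s34 : ∀ {a b c e : G}, c ∈ A → e ∈ A → f a b c e = f a b e c := fun {a b c e} hc he =>
    h.omega_congr hu' (hC4 _ _ _ _)
      (h.d_congr a (hC3 _ _ _) (h.d_congr b (hC2 _ _) (h.swapZ hc he hu')))
  have sinv : ∀ {a b c e : G}, a ∈ A → b ∈ A → c ∈ A → e ∈ A → f a⁻¹ b c e = (f a b c e)⁻¹ :=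
    fun {a b c e} ha hb hc he => by
    set X := ⁅b, ⁅c, ⁅e, u⁆⁆⁆
    have hX : X ∈ C := hC3 _ _ _
    have h5 := hn _ ⟨a, ha, _, hIm4 (inv_mem ha) hb hc he, rfl⟩
    refine eq_inv_of_mul_eq_one_left ?_
    show ⁅u, ⁅a⁻¹, X⁆⁆ * ⁅u, ⁅a, X⁆⁆ = 1
    have e1 : ⁅u, ⁅a, ⁅a⁻¹, X⁆⁆ * ⁅a⁻¹, X⁆ * ⁅a, X⁆⁆ = 1 := by
      rw [h.inv_ident a X, commutatorElement_one_right]
    rwa [h.mulRC hu' (mul_mem (h.dC a (h.dC a⁻¹ hX)) (h.dC a⁻¹ hX)) (h.dC a hX),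
      h.mulRC hu' (h.dC a (h.dC a⁻¹ hX)) (h.dC a⁻¹ hX),
      comm_of_commute (Subgroup.mem_centralizer_iff.mp h5.2 u hu'), one_mul] at e1
  have srev : ∀ {a b c e : G}, a ∈ A → b ∈ A → c ∈ A → e ∈ A →
      f a⁻¹ b⁻¹ c⁻¹ e⁻¹ = f e c b a := fun {a b c e} ha hb hc he => by
    have ha' := inv_mem ha
    have hb' := inv_mem hb
    have hc' := inv_mem hc
    have he' := inv_mem he
    rw [sinv ha hb' hc' he', s12 ha hb', sinv hb ha hc' he', inv_inv, s23 ha hc', s12 hb hc',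
      sinv hc hb ha he', s34 ha he', s23 hb he', s12 hc he', sinv he hc hb ha, inv_inv]
  -- skew symmetry modulo `A`
  have flip : ∀ {x : G}, x ∈ A → ∀ {v w : G}, v ∈ C → w ∈ C →
      ⁅⁅x, v⁆, w⁆ * ⁅v, ⁅x⁻¹, w⁆⁆⁻¹ ∈ A := fun {x} hx {v w} hv hw => by
    set X := ⁅v, ⁅x⁻¹, w⁆⁆
    have hXR : X ∈ R := h.CC _ hv _ (h.dC x⁻¹ hw)
    have hq : ⁅x, ⁅v, w⁆⁆ * X⁻¹ = X⁻¹ * ⁅x, ⁅v, w⁆⁆ :=
      h.rC (h.dR x (h.CC _ hv _ hw)) (inv_mem (h.RC hXR))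
    rw [h.ident x hv hw, mul_assoc, hq, ← mul_assoc, conj_eq, mul_inv_cancel_right]
    exact mul_mem (h.quadR hXR hx) (h.quadR (h.CC _ hv _ hw) hx)
  have hf : ∀ {a b c e : G}, a ∈ A → b ∈ A → c ∈ A → e ∈ A → f a b c e ∈ A :=
    fun {a b c e} ha hb hc he => by
    have c1 := flip ha (hC3 b c e) hu'
    have c2 := flip hb (hC2 c e) (hC1 a⁻¹)
    have c3 := flip hc (hC1 e) (hC2 b⁻¹ a⁻¹)
    have c4 := flip he hu' (hC3 c⁻¹ b⁻¹ a⁻¹)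
    have h4 : ⁅⁅a, ⁅b, ⁅c, ⁅e, u⁆⁆⁆⁆, u⁆ * (f e⁻¹ c⁻¹ b⁻¹ a⁻¹)⁻¹ ∈ A := by
      have := mul_mem (mul_mem (mul_mem c1 c2) c3) c4
      simpa [f, mul_assoc, -commutatorElement_inv] using this
    rw [srev he hc hb ha, ← commutatorElement_inv u ⁅a, ⁅b, ⁅c, ⁅e, u⁆⁆⁆⁆,
      show ⁅u, ⁅a, ⁅b, ⁅c, ⁅e, u⁆⁆⁆⁆⁆ = f a b c e from rfl] at h4
    have h2 : f a b c e ^ 2 ∈ A := by
      have := inv_mem h4
      rwa [mul_inv_rev, inv_inv, ← pow_two] at this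
    exact h.mem_of_sq (h.RS (h.CC _ hu' _ (hC4 a b c e))) h2
  rw [h.ident e hu' (h.dC a (h.dC b (h.dC c (hC1 e)))),
    comm_of_commute (Subgroup.mem_centralizer_iff.mp
      (hn _ ⟨e⁻¹, inv_mem he, _, hIm4 ha hb hc he, rfl⟩).2 u hu'),
    h.fixA he (hf ha hb hc he)]
  group

/-- Bound four on `C / Z(C)`. -/
theorem degree_quot {u a b c e : G} (hu : u ∈ C) (ha : a ∈ A) (hb : b ∈ A) (hc : c ∈ A)
    (he : e ∈ A) : ⁅a, ⁅b, ⁅c, ⁅e, u⁆⁆⁆⁆ ∈ C ⊓ Subgroup.centralizer (C : Set G) := by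
  haveI := h.pS.isNilpotent
  obtain ⟨N, hN⟩ := (Subgroup.isNilpotent_iff_lowerCentralSeries (S := S)).mp inferInstance
  suffices key : ∀ j n, n + j = N + 4 → 4 ≤ n → ∀ w, Im A C n w →
      w ∈ C ⊓ Subgroup.centralizer (C : Set G) from
    key N 4 (by omega) le_rfl _ ⟨a, ha, _, ⟨b, hb, _, ⟨c, hc, _, ⟨e, he, u, hu, rfl⟩, rfl⟩, rfl⟩, rfl⟩
  intro j
  induction j with
  | zero =>
    intro n hn _ w hw
    have h1 := h.im_lcs (h.im_mono (show N ≤ n by omega) hw)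
    rw [hN, Subgroup.mem_bot] at h1
    rw [h1]
    exact one_mem _
  | succ j ih =>
    intro n hn hn4 w hw
    have hn' := ih (n + 1) (by omega) (by omega)
    rcases eq_or_lt_of_le hn4 with rfl | hn5
    · exact h.four_step hn' hw
    obtain ⟨m, rfl⟩ : ∃ m, n = m + 3 := ⟨n - 3, by omega⟩
    obtain ⟨a, ha, _, ⟨b, hb, _, ⟨c, hc, v, hv, rfl⟩, rfl⟩, rfl⟩ := hw
    refine h.three_of_seed ⟨h.im_C hv, fun a ha b hb c hc => ?_⟩ ha hb hc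
    exact (h.pair hn' m (m + 3) v _ hv ⟨a, ha, _, ⟨b, hb, _, ⟨c, hc, v, hv, rfl⟩, rfl⟩, rfl⟩).2
      (by omega)

end Cfg

end Cfsg.Agent.JTrans
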