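import Cfsg.Agent.JTrans.Degree
import Cfsg.Agent.CF.MinimalFailure
import Cfsg.Agent.CF.CriticalAction
import Cfsg.Agent.CF.SectionTools
import Cfsg.Agent.PGroup.Critical

/-!
For `p ≥ 7` the normalizer of `J(S)` controls transfer.
-/

set_option autoImplicit false

open scoped commutatorElement

namespace Cfsg.Agent.JTrans

open Cfsg.Agent.Fusion Cfsg.Agent.CF

universe u

variable {G : Type u} [Group G]

/-- `n` operations from `A` land in `V`. -/
def LevP (A V : Subgroup G) : ℕ → G → Prop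
  | 0, x => x ∈ V
  | n + 1, x => ∀ a ∈ A, LevP A V n ⁅a, x⁆

theorem lev_subgroup [Finite G] (A U V : Subgroup G) [U.Normal] [V.Normal] (hVU : V ≤ U)
    (hUU : ∀ x ∈ U, ∀ y ∈ U, ⁅x, y⁆ ∈ V) (n : ℕ) :
    ∃ K : Subgroup G, V ≤ K ∧ ∀ v, v ∈ K ↔ v ∈ U ∧ LevP A V n v := by
  induction n with
  | zero => exact ⟨V, le_rfl, fun v => ⟨fun hv => ⟨hVU hv, hv⟩, fun hv => hv.2⟩⟩
  | succ n ih =>
    obtain ⟨K, hVK, hK⟩ := ih
    have hdU : ∀ (g : G) {x : G}, x ∈ U → ⁅g, x⁆ ∈ U := fun g x hx => by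
      rw [commutatorElement_def]
      exact mul_mem ((inferInstance : U.Normal).conj_mem x hx g) (inv_mem hx)
    have hconj : ∀ x ∈ U, ∀ w ∈ K, x * w * x⁻¹ ∈ K := fun x hx w hw => by
      rw [conj_eq]
      exact mul_mem (hVK (hUU x hx w ((hK w).1 hw).1)) hw
    refine ⟨{ carrier := {v | v ∈ U ∧ ∀ a ∈ A, ⁅a, v⁆ ∈ K}
              one_mem' := ⟨one_mem _, fun a _ => by
                rw [commutatorElement_one_right]; exact one_mem _⟩
              mul_mem' := fun {v w} hv hw => ⟨mul_mem hv.1 hw.1, fun a ha => by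
                rw [mulR]; exact mul_mem (hv.2 a ha) (hconj v hv.1 _ (hw.2 a ha))⟩
              inv_mem' := fun {v} hv => ⟨inv_mem hv.1, fun a ha => by
                rw [show ⁅a, v⁻¹⁆ = v⁻¹ * ⁅a, v⁆⁻¹ * v⁻¹⁻¹ by
                  simp only [commutatorElement_def]; group]
                exact hconj _ (inv_mem hv.1) _ (inv_mem (hv.2 a ha))⟩ }, ?_, fun v => ?_⟩
    · intro v hv
      refine ⟨hVU hv, fun a _ => hVK ?_⟩
      rw [commutatorElement_def]
      exact mul_mem ((inferInstance : V.Normal).conj_mem v hv a) (inv_mem hv)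
    · exact ⟨fun hv => ⟨hv.1, fun a ha => ((hK _).1 (hv.2 a ha)).2⟩,
        fun hv => ⟨hv.1, fun a ha => (hK _).2 ⟨hdU a hv.1, hv.2 a ha⟩⟩⟩

theorem iter_le [Finite G] {A U V : Subgroup G} [U.Normal] [V.Normal] (hVU : V ≤ U)
    (hUU : ∀ x ∈ U, ∀ y ∈ U, ⁅x, y⁆ ∈ V) {g : G} (hg : g ∈ A) {n : ℕ}
    (hn : ∀ v ∈ U, LevP A V n v) : Cfsg.iterCommutator U (Subgroup.zpowers g) n ≤ V := by
  have key : ∀ i j, i + j = n → ∀ v ∈ Cfsg.iterCommutator U (Subgroup.zpowers g) i,
      v ∈ U ∧ LevP A V j v := by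
    intro i
    induction i with
    | zero => exact fun j hj v hv => ⟨hv, by rw [show j = n by omega]; exact hn v hv⟩
    | succ i ih =>
      intro j hj
      obtain ⟨K, -, hK⟩ := lev_subgroup A U V hVU hUU j
      have hle : Cfsg.iterCommutator U (Subgroup.zpowers g) (i + 1) ≤ K := by
        show ⁅Cfsg.iterCommutator U (Subgroup.zpowers g) i, Subgroup.zpowers g⁆ ≤ K
        refine Subgroup.commutator_le.mpr fun v hv k hk => ?_
        obtain ⟨hvU, hv'⟩ := ih (j + 1) (by omega) v hv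
        rw [← commutatorElement_inv k v]
        refine inv_mem ((hK _).2 ⟨?_, hv' k (Subgroup.zpowers_le.mpr hg hk)⟩)
        rw [commutatorElement_def]
        exact mul_mem ((inferInstance : U.Normal).conj_mem v hvU k) (inv_mem hvU)
      exact fun v hv => (hK v).1 (hle hv)
  exact fun v hv => (key n 0 (by omega) v hv).2

/-- `J` as a functor on groups. -/
def jFun : ∀ (Q : Type u) [Group Q], Subgroup Q := fun Q _ => Cfsg.thompsonSubgroupA Q

theorem induced_jFun (P : Subgroup G) :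
    Cfsg.inducedFunctor jFun P = Cfsg.thompsonSubgroupAOf P := rfl

theorem jFun_charP {p : ℕ} [Fact p.Prime] : Cfsg.IsCharPFunctor.{u} p jFun := by
  refine ⟨fun Q _ _ hQ hne hb => ?_, fun Q R _ _ _ _ φ => Modules.map_thompsonSubgroupA φ⟩
  haveI := hne
  haveI := hQ.center_nontrivial
  refine (Subgroup.nontrivial_iff_ne_bot _).mp (inferInstance : Nontrivial (Subgroup.center Q)) ?_
  refine le_bot_iff.mp ((le_trans ?_ (hb.le : jFun Q ≤ ⊥)))
  intro z hz
  obtain ⟨A, hA⟩ := Modules.maxAbIn_nonempty (⊤ : Subgroup Q)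
  rw [jFun, ← Modules.thompsonSubgroupAOf_top]
  exact Modules.le_thompsonSubgroupAOf hA (Modules.mem_maxAbIn_of_centralizing hA
    (Subgroup.mem_top z)
    (Subgroup.mem_centralizer_iff.mpr fun a _ => Subgroup.mem_center_iff.mp hz a))

theorem exists_good [Finite G] {p : ℕ} [Fact p.Prime] (hp : p ≠ 2) (S : Sylow p G)
    (hn : ¬ (Cfsg.thompsonSubgroupAOf (S : Subgroup G)).Normal) :
    ∃ g : G, g ∈ (S : Subgroup G) ∧ g ∉ Cfsg.pCore p G ∧ IterGood g 6 (Cfsg.pCore p G) := by
  set Q := Cfsg.pCore p G with hQdef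
  have hQp : IsPGroup p Q := Cores.pCore_isPGroup
  have hQS : Q ≤ (S : Subgroup G) := Cores.pCore_le_sylow S
  have hex : {A | A ∈ Modules.maxAbIn (S : Subgroup G) ∧ ¬ A ≤ Q}.Nonempty := by
    by_contra hemp
    rw [Set.not_nonempty_iff_eq_empty, Set.eq_empty_iff_forall_notMem] at hemp
    apply hn
    have hJ : Cfsg.thompsonSubgroupAOf (S : Subgroup G) ≤ Q := by
      rw [Modules.thompsonSubgroupAOf_eq_sSup]
      exact sSup_le fun A hA => by_contra fun hAQ => hemp A ⟨hA, hAQ⟩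
    rw [← Modules.thompsonSubgroupAOf_eq_of_le hQS hJ]
    haveI := Modules.thompsonSubgroupA_characteristic Q
    exact Cores.normal_map_subtype_of_characteristic _
  obtain ⟨C₀, hC₀⟩ := PGroup.exists_isCriticalSubgroup hQp
  haveI := hC₀.characteristic
  set C := C₀.map Q.subtype with hC
  haveI hCn : C.Normal := Cores.normal_map_subtype_of_characteristic C₀
  have hCQ : C ≤ Q := Subgroup.map_subtype_le C₀
  set R := Q ⊓ Subgroup.centralizer (Q : Set G) with hR
  obtain ⟨A, ⟨hA, hAQ⟩, hmax⟩ := Set.exists_max_image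
    {A | A ∈ Modules.maxAbIn (S : Subgroup G) ∧ ¬ A ≤ Q}
    (fun A => Nat.card (A ⊓ R : Subgroup G) + Nat.card (A ⊓ C : Subgroup G)) (Set.toFinite _) hex
  have hmem : ∀ {t : ↥Q}, (t : G) ∈ C ↔ t ∈ C₀ := fun {t} =>
    Subgroup.mem_map_iff_mem Q.subtype_injective
  have hQ3 : ⁅Q, C⁆ ≤ C ⊓ Subgroup.centralizer (C : Set G) := by
    rw [Subgroup.commutator_comm, Subgroup.commutator_le]
    rintro _ ⟨a, ha, rfl⟩ t ht
    refine ⟨Subgroup.commutator_le_left C ⊤ (Subgroup.commutator_mem_commutator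
        (Subgroup.mem_map_of_mem _ ha) (Subgroup.mem_top t)), ?_⟩
    refine Subgroup.mem_centralizer_iff.mpr ?_
    rintro _ ⟨c, hc, rfl⟩
    exact congrArg Subtype.val (Subgroup.mem_centralizer_iff.mp (hC₀.commutator_le
      (Subgroup.commutator_mem_commutator ha (Subgroup.mem_top (⟨t, ht⟩ : Q)))) c hc)
  have hQ4 : Q ⊓ Subgroup.centralizer (C : Set G) = C ⊓ Subgroup.centralizer (C : Set G) := by
    refine le_antisymm (fun t ht => ⟨?_, ht.2⟩) (inf_le_inf_right _ hCQ)
    refine (hmem (t := ⟨t, ht.1⟩)).mpr (hC₀.centralizer_le ?_)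
    rw [Subgroup.mem_centralizer_iff]
    intro c hc
    exact Subtype.ext (Subgroup.mem_centralizer_iff.mp ht.2 c (Subgroup.mem_map_of_mem _ hc))
  have hCC : ⁅C, C⁆ ≤ R := by
    refine le_inf ((Subgroup.commutator_le_left C C).trans hCQ) ?_
    rw [← Subgroup.commutator_eq_bot_iff_le_centralizer]
    refine Subgroup.commutator_commutator_eq_bot_of_rotate ?_ ?_
    · rw [Subgroup.commutator_eq_bot_iff_le_centralizer, Subgroup.commutator_comm]
      exact hQ3.trans inf_le_right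
    · rw [Subgroup.commutator_eq_bot_iff_le_centralizer]
      exact hQ3.trans inf_le_right
  have hRC : R ≤ C := fun r hr => (hQ4.le ⟨hr.1,
    Subgroup.centralizer_le (SetLike.coe_subset_coe.mpr hCQ) hr.2⟩).1
  have cfg : Cfg p (S : Subgroup G) Q C R A :=
    { odd := hp
      pS := S.2
      QS := hQS
      CQ := hCQ
      RC := hRC
      Cn := hCn
      Rn := by rw [hR]; infer_instance
      Rc := fun r hr q hq => (Subgroup.mem_centralizer_iff.mp hr.2 q hq).symm
      CC := fun x hx y hy => hCC (Subgroup.commutator_mem_commutator hx hy)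
      CQz := fun q hq x hx y hy => (Subgroup.mem_centralizer_iff.mp
        (hQ3 (Subgroup.commutator_mem_commutator hq hx)).2 y hy).symm
      hA := hA
      amax := fun B hB hBQ => hmax B ⟨hB, hBQ⟩ }
  obtain ⟨g, hgA, hgQ⟩ := SetLike.not_le_iff_exists.mp hAQ
  refine ⟨g, hA.1 hgA, hgQ, ?_⟩
  set Z := C ⊓ Subgroup.centralizer (C : Set G) with hZ
  have hZQ : Z ≤ Q := inf_le_left.trans hCQ
  have hZ3 : IterGood g 3 Z := by
    intro U V hUV hU
    haveI : U.Normal := hUV.2.1
    haveI : V.Normal := hUV.2.2.1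
    have hcen := chief_centralized hQp hUV (hU.trans hZQ)
    refine iter_le hUV.1.le (fun x hx y hy => hcen x (hZQ (hU hx)) y hy) hgA fun u hu => ?_
    intro c hc b hb a ha
    exact cfg.degree_center hUV.1.le hUV.2.2.2 (hU.trans inf_le_left)
      (fun u hu y hy => (Subgroup.mem_centralizer_iff.mp (hU hu).2 y hy).symm) hcen hu ha hb hc
  have hC4 : IterGood g 4 C := by
    refine iterGood_step (N := Z) (fun U V hUV hU => ?_) ?_
    · haveI : V.Normal := hUV.2.2.1
      exact iterCommutator_le_of_le (by omega) (hZ3 U V hUV hU)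
    refine iter_le inf_le_left (fun x hx y hy => hQ3 (Subgroup.commutator_mem_commutator (hCQ hx) hy))
      hgA fun u hu => ?_
    intro e he c hc b hb a ha
    exact cfg.degree_quot hu ha hb hc he
  exact iterGood_critical Q hQp C hCQ hQ3 hQ4 g (i := 4) (j := 3) (by omega) hC4 hZ3

/-- `N(J(S))` controls transfer. -/
theorem trIn_j [Finite G] {p : ℕ} [Fact p.Prime] (hp : 7 ≤ p) (S : Sylow p G) :
    TrIn {Cfsg.inducedFunctor (G := G) jFun} ⊤ (S : Subgroup G) := by
  have h𝓦 : ∀ V ∈ ({jFun} : Set (∀ (Q : Type u) [Group Q], Subgroup Q)),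
      Cfsg.IsCharPFunctor.{u} p V := fun V hV => (Set.mem_singleton_iff.mp hV) ▸ jFun_charP
  rw [← fam_singleton]
  refine trIn_of_sections h𝓦 ?_ G (IsSec.refl G) S
  intro Y _ _ _ hC hsub hquot T
  by_contra hnot
  have hnn : ¬ (Cfsg.thompsonSubgroupAOf (T : Subgroup Y)).Normal := fun hn => hnot
    (le_iSup₂_of_le _ ⟨jFun, Set.mem_singleton _, rfl⟩ (le_of_eq (by
      simp only [Nz, induced_jFun, Subgroup.normalizer_eq_top (h := hn), top_inf_eq])))
  obtain ⟨g, hg, hgQ, h6⟩ := exists_good (by omega) T hnn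
  obtain ⟨U, V, hUV, hU, hno⟩ :=
    (minimal_failure h𝓦 (Set.singleton_nonempty _) T hsub hquot hC hnot).2.2 g hg hgQ
  haveI : V.Normal := hUV.2.2.1
  exact hno (iterCommutator_le_of_le (by omega) (h6 U V hUV hU))

end Cfsg.Agent.JTrans
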