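import Cfsg.Agent.Transfer.Tate

/-!
Control of transfer gives isomorphic largest `p`-factor groups.
-/

set_option autoImplicit false

namespace Cfsg.Agent.JTrans

universe u

variable {G : Type u} [Group G]

theorem quot_equiv_of_control [Finite G] {p : ℕ} [Fact p.Prime] (P : Sylow p G) {H : Subgroup G}
    (hPH : (P : Subgroup G) ≤ H) (h : commutator G ⊓ (P : Subgroup G) ≤ ⁅H, H⁆)
    [(Cfsg.pResidual p G).Normal] [(Cfsg.pResidual p H).Normal] :
    Nonempty (G ⧸ Cfsg.pResidual p G ≃* H ⧸ Cfsg.pResidual p H) := by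
  have hres := Cfsg.Agent.Transfer.sylow_inf_pResidual_eq_of_transfer_control P hPH h
  let φ : H →* G ⧸ Cfsg.pResidual p G := (QuotientGroup.mk' _).comp H.subtype
  have hH : ¬ p ∣ H.index := fun hd =>
    P.not_dvd_index (hd.trans (Subgroup.index_dvd_of_le hPH))
  have hsurj : Function.Surjective φ := fun q => by
    obtain ⟨g, rfl⟩ := QuotientGroup.mk_surjective q
    obtain ⟨w, hw, y, hy, rfl⟩ := Cfsg.Agent.Transfer.exists_mul_eq_of_not_dvd_index hH g
    refine ⟨⟨y, hy⟩, ?_⟩
    show (QuotientGroup.mk y : G ⧸ Cfsg.pResidual p G) = QuotientGroup.mk (w * y)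
    rw [QuotientGroup.mk_mul, (QuotientGroup.eq_one_iff w).mpr hw, one_mul]
  have hker : φ.ker = Cfsg.pResidual p H := by
    ext g
    rw [MonoidHom.mem_ker]
    show (QuotientGroup.mk (g : G) : G ⧸ Cfsg.pResidual p G) = 1 ↔ g ∈ Cfsg.pResidual p H
    rw [QuotientGroup.eq_one_iff]
    constructor
    · intro hg
      obtain ⟨w, hw, y, hy, he⟩ := Cfsg.Agent.Transfer.exists_mul_eq_of_not_dvd_index (p := p)
        (P.subtype hPH).not_dvd_index g
      have hw' : (w : G) ∈ Cfsg.pResidual p G :=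
        Cfsg.Agent.Transfer.map_pResidual_le H.subtype (Subgroup.mem_map_of_mem _ hw)
      have hy' : (y : G) ∈ (P : Subgroup G) ⊓ Cfsg.pResidual p G := by
        refine Subgroup.mem_inf.2 ⟨hy, ?_⟩
        rw [show (y : G) = (w : G)⁻¹ * g by rw [← he]; simp]
        exact mul_mem (inv_mem hw') hg
      rw [hres] at hy'
      obtain ⟨z, hz, hzy⟩ := hy'.2
      rw [← he]
      exact mul_mem hw (Subtype.ext hzy ▸ hz)
    · exact fun hg => Cfsg.Agent.Transfer.map_pResidual_le H.subtype (Subgroup.mem_map_of_mem _ hg)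
  exact ⟨(QuotientGroup.quotientKerEquivOfSurjective φ hsurj).symm.trans
    (QuotientGroup.quotientMulEquivOfEq hker)⟩

end Cfsg.Agent.JTrans
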