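import Cfsg.Agent.JTrans.Basic

/-!
An element `u` of `C` with `⁅u, ⁅a, ⁅b, ⁅c, u⁆⁆⁆⁆ = 1`: the commutator form on `⁅A, u⁆` is a coboundary,
and elements of `A` sending `u` into the double commutators lie in `Q`.
-/

set_option autoImplicit false

open scoped commutatorElement

namespace Cfsg.Agent.JTrans

variable {G : Type*} [Group G]

/-- The hypothesis on `u`. -/
structure Seed (C A : Subgroup G) (u : G) : Prop where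
  mem : u ∈ C
  h3 : ∀ a ∈ A, ∀ b ∈ A, ∀ c ∈ A, ⁅u, ⁅a, ⁅b, ⁅c, u⁆⁆⁆⁆ = 1

/-- `⁅u, ⁅a, ⁅b, u⁆⁆⁆`. -/
def tt (u a b : G) : G := ⁅u, ⁅a, ⁅b, u⁆⁆⁆

/-- `⁅u, ⁅b, u⁆⁆`. -/
def ph (u b : G) : G := ⁅u, ⁅b, u⁆⁆

/-- The subgroup generated by the `⁅a, u⁆`. -/
def MM (A : Subgroup G) (u : G) : Subgroup G := Subgroup.closure {x | ∃ a ∈ A, ⁅a, u⁆ = x}

/-- The subgroup generated by the `⁅a, ⁅b, u⁆⁆`. -/
def UU (A : Subgroup G) (u : G) : Subgroup G :=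
  Subgroup.closure {x | ∃ a ∈ A, ∃ b ∈ A, ⁅a, ⁅b, u⁆⁆ = x}

/-- The subgroup generated by the `⁅x, u⁆`, `x ∈ A ⊓ Q`. -/
def Z0 (Q A : Subgroup G) (u : G) : Subgroup G :=
  Subgroup.closure {x | ∃ a ∈ A ⊓ Q, ⁅a, u⁆ = x}

/-- Composites of the maps `x ↦ ⁅a, x⁆`. -/
inductive Op (A : Subgroup G) : (G → G) → Prop
  | one {a : G} : a ∈ A → Op A fun x => ⁅a, x⁆
  | step {a : G} {f : G → G} : a ∈ A → Op A f → Op A fun x => ⁅a, f x⁆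

namespace Cfg

variable {p : ℕ} {S Q C R A : Subgroup G} (h : Cfg p S Q C R A) {u : G} (hu : Seed C A u)

include h hu

theorem d1C (a : G) : ⁅a, u⁆ ∈ C := h.dC a hu.mem
theorem d2C (a b : G) : ⁅a, ⁅b, u⁆⁆ ∈ C := h.dC a (h.dC b hu.mem)
theorem ttR (a b : G) : tt u a b ∈ R := h.CC u hu.mem _ (h.d2C hu a b)
theorem phR (b : G) : ph u b ∈ R := h.CC u hu.mem _ (h.d1C hu b)
theorem LR (a b : G) : ⁅⁅a, u⁆, ⁅b, u⁆⁆ ∈ R := h.CC _ (h.d1C hu a) _ (h.d1C hu b)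

theorem tt_symm {a b : G} (ha : a ∈ A) (hb : b ∈ A) : tt u a b = tt u b a := by
  unfold tt
  rw [h.swap ha hb hu.mem, h.mulRC hu.mem (h.d2C hu b a) (h.RC (h.LR hu a b)),
    h.crC hu.mem (h.LR hu a b), mul_one]

theorem tt_inv {a b : G} (ha : a ∈ A) (hb : b ∈ A) :
    ⁅u, ⁅a⁻¹, ⁅b, u⁆⁆⁆ = (tt u a b)⁻¹ := by
  have e := h.inv_ident a ⁅b, u⁆
  refine eq_inv_of_mul_eq_one_left ?_
  have h1 := hu.h3 a ha a⁻¹ (inv_mem ha) b hb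
  have h2 : ⁅u, ⁅a, ⁅a⁻¹, ⁅b, u⁆⁆⁆ * ⁅a⁻¹, ⁅b, u⁆⁆ * ⁅a, ⁅b, u⁆⁆⁆ = 1 := by
    rw [e, commutatorElement_one_right]
  rw [h.mulRC hu.mem (mul_mem (h.dC a (h.d2C hu a⁻¹ b)) (h.d2C hu a⁻¹ b)) (h.d2C hu a b),
    h.mulRC hu.mem (h.dC a (h.d2C hu a⁻¹ b)) (h.d2C hu a⁻¹ b), h1, one_mul] at h2
  exact h2

theorem L_eq {a b : G} (ha : a ∈ A) (hb : b ∈ A) :
    ⁅⁅a, u⁆, ⁅b, u⁆⁆ = a * (tt u a b)⁻¹ * a⁻¹ * ⁅a, ph u b⁆ := by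
  rw [h.ident a hu.mem (h.d1C hu b), h.tt_inv hu ha hb]
  rfl

variable [Finite G] [Fact p.Prime]

theorem tt_memA {a b : G} (ha : a ∈ A) (hb : b ∈ A) : tt u a b ∈ A := by
  set t := (tt u a b)⁻¹ with ht
  have htR : t ∈ R := inv_mem (h.ttR hu a b)
  have hq : ∀ c ∈ A, ∀ r ∈ R, ⁅c, r⁆ * t = t * ⁅c, r⁆ := fun c _ r hr =>
    h.rC (h.dR c hr) (h.RC htR)
  have hphb := h.quadR (h.phR hu b) ha
  have hpha := h.quadR (h.phR hu a) hb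
  have hta := h.quadR htR ha
  have htb := h.quadR htR hb
  have e : ⁅a, t⁆ * t * ⁅a, ph u b⁆ * (⁅b, t⁆ * t * ⁅b, ph u a⁆) = 1 := by
    rw [← conj_eq a t, ← conj_eq b t, ← h.L_eq hu ha hb,
      show b * t * b⁻¹ * ⁅b, ph u a⁆ = ⁅⁅b, u⁆, ⁅a, u⁆⁆ by
        rw [h.L_eq hu hb ha, ht, h.tt_symm hu ha hb],
      ← commutatorElement_inv ⁅a, u⁆ ⁅b, u⁆, mul_inv_cancel]
  have e' : ⁅a, t⁆ * ⁅a, ph u b⁆ * ⁅b, t⁆ * ⁅b, ph u a⁆ * (t * t) = 1 := by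
    rw [← e]
    have q1 := hq a ha _ (h.phR hu b)
    have q2 := hq b hb _ htR
    have q3 := hq b hb _ (h.phR hu a)
    calc ⁅a, t⁆ * ⁅a, ph u b⁆ * ⁅b, t⁆ * ⁅b, ph u a⁆ * (t * t)
        = ⁅a, t⁆ * ⁅a, ph u b⁆ * ⁅b, t⁆ * (⁅b, ph u a⁆ * t) * t := by group
      _ = ⁅a, t⁆ * ⁅a, ph u b⁆ * ⁅b, t⁆ * (t * ⁅b, ph u a⁆) * t := by rw [q3]
      _ = ⁅a, t⁆ * ⁅a, ph u b⁆ * (⁅b, t⁆ * t) * (⁅b, ph u a⁆ * t) := by group
      _ = ⁅a, t⁆ * ⁅a, ph u b⁆ * (t * ⁅b, t⁆) * (t * ⁅b, ph u a⁆) := by rw [q2, q3]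
      _ = ⁅a, t⁆ * (⁅a, ph u b⁆ * t) * (⁅b, t⁆ * t) * ⁅b, ph u a⁆ := by group
      _ = ⁅a, t⁆ * (t * ⁅a, ph u b⁆) * (⁅b, t⁆ * t) * ⁅b, ph u a⁆ := by rw [q1]
      _ = _ := by group
  have h2 : t * t ∈ A := by
    rw [eq_inv_of_mul_eq_one_right e']
    exact inv_mem (mul_mem (mul_mem (mul_mem hta hphb) htb) hpha)
  have h3 : t ∈ A := h.mem_of_sq (h.RS htR) (by rw [pow_two]; exact h2)
  simpa [ht] using inv_mem h3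

theorem L_val {a b : G} (ha : a ∈ A) (hb : b ∈ A) :
    ⁅⁅a, u⁆, ⁅b, u⁆⁆ = (tt u a b)⁻¹ * ⁅a, ph u b⁆ := by
  rw [h.L_eq hu ha hb, conj_of_commute (h.commA ha (inv_mem (h.tt_memA hu ha hb)))]

theorem L_memA {a b : G} (ha : a ∈ A) (hb : b ∈ A) : ⁅⁅a, u⁆, ⁅b, u⁆⁆ ∈ A := by
  rw [h.L_val hu ha hb]
  exact mul_mem (inv_mem (h.tt_memA hu ha hb)) (h.quadR (h.phR hu b) ha)

theorem TT {a b : G} (ha : a ∈ A) (hb : b ∈ A) :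
    tt u a b * tt u a b = ⁅a, ph u b⁆ * ⁅b, ph u a⁆ := by
  have e : ⁅⁅a, u⁆, ⁅b, u⁆⁆ * ⁅⁅b, u⁆, ⁅a, u⁆⁆ = 1 := by
    rw [← commutatorElement_inv ⁅a, u⁆ ⁅b, u⁆, mul_inv_cancel]
  rw [h.L_val hu ha hb, h.L_val hu hb ha, ← h.tt_symm hu ha hb] at e
  set t := tt u a b
  have q1 : ⁅a, ph u b⁆ * t⁻¹ = t⁻¹ * ⁅a, ph u b⁆ :=
    h.rC (h.dR a (h.phR hu b)) (inv_mem (h.RC (h.ttR hu a b)))
  calc t * t = t * t * (t⁻¹ * ⁅a, ph u b⁆ * (t⁻¹ * ⁅b, ph u a⁆)) := by rw [e, mul_one]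
    _ = t * (⁅a, ph u b⁆ * t⁻¹) * ⁅b, ph u a⁆ := by group
    _ = t * (t⁻¹ * ⁅a, ph u b⁆) * ⁅b, ph u a⁆ := by rw [q1]
    _ = _ := by group

theorem L_sq {a b : G} (ha : a ∈ A) (hb : b ∈ A) :
    ⁅⁅a, u⁆, ⁅b, u⁆⁆ * ⁅⁅a, u⁆, ⁅b, u⁆⁆ = ⁅a, ph u b⁆ * ⁅b, ph u a⁆⁻¹ := by
  rw [h.L_val hu ha hb]
  set t := tt u a b with ht
  set x := ⁅a, ph u b⁆
  set y := ⁅b, ph u a⁆
  have hx : x ∈ A := h.quadR (h.phR hu b) ha
  have hy : y ∈ A := h.quadR (h.phR hu a) hb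
  have htA : t ∈ A := h.tt_memA hu ha hb
  calc t⁻¹ * x * (t⁻¹ * x) = t⁻¹ * (x * t⁻¹) * x := by group
    _ = t⁻¹ * (t⁻¹ * x) * x := by rw [h.commA hx (inv_mem htA)]
    _ = (t * t)⁻¹ * x * x := by group
    _ = (x * y)⁻¹ * x * x := by rw [h.TT hu ha hb]
    _ = y⁻¹ * x := by group
    _ = x * y⁻¹ := h.commA (inv_mem hy) hx

theorem ph_mul {a b : G} (ha : a ∈ A) (hb : b ∈ A) :
    ph u (a * b) = tt u a b * ph u b * ph u a := by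
  unfold ph tt
  rw [mulL', h.mulRC hu.mem (mul_mem (h.d2C hu a b) (h.d1C hu b)) (h.d1C hu a),
    h.mulRC hu.mem (h.d2C hu a b) (h.d1C hu b)]

theorem DD_D {a b c : G} (ha : a ∈ A) (hb : b ∈ A) (hc : c ∈ A) :
    ⁅⁅a, ⁅b, u⁆⁆, ⁅c, u⁆⁆ = 1 := by
  rw [h.ident a (h.d1C hu b) (h.d1C hu c), h.fixA ha (h.L_memA hu hb hc), mul_one,
    h.ident b hu.mem (h.d2C hu a⁻¹ c), hu.h3 b⁻¹ (inv_mem hb) a⁻¹ (inv_mem ha) c hc,
    show ⁅u, ⁅a⁻¹, ⁅c, u⁆⁆⁆ = tt u a⁻¹ c from rfl,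
    h.fixA hb (h.tt_memA hu (inv_mem ha) hc)]
  group

theorem MM_le_C : MM A u ≤ C :=
  (Subgroup.closure_le _).mpr (by rintro x ⟨a, -, rfl⟩; exact h.d1C hu a)

omit h hu [Finite G] [Fact p.Prime] in
theorem gen_MM {a : G} (ha : a ∈ A) : ⁅a, u⁆ ∈ MM A u :=
  Subgroup.subset_closure ⟨a, ha, rfl⟩

omit h hu [Finite G] [Fact p.Prime] in
theorem gen_UU {a b : G} (ha : a ∈ A) (hb : b ∈ A) : ⁅a, ⁅b, u⁆⁆ ∈ UU A u :=
  Subgroup.subset_closure ⟨a, ha, b, hb, rfl⟩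

omit [Finite G] [Fact p.Prime] in
theorem UU_le_MM : UU A u ≤ MM A u := by
  refine (Subgroup.closure_le _).mpr ?_
  rintro x ⟨a, ha, b, hb, rfl⟩
  rw [SetLike.mem_coe, show ⁅a, ⁅b, u⁆⁆ = ⁅a * b, u⁆ * ⁅a, u⁆⁻¹ * ⁅b, u⁆⁻¹ by
    rw [mulL']; group]
  exact mul_mem (mul_mem (gen_MM (mul_mem ha hb)) (inv_mem (gen_MM ha))) (inv_mem (gen_MM hb))

theorem UU_comm {x y : G} (hx : x ∈ UU A u) (hy : y ∈ MM A u) : x * y = y * x := by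
  have h1 : UU A u ≤ Subgroup.centralizer {x | ∃ a ∈ A, ⁅a, u⁆ = x} :=
    (Subgroup.closure_le _).mpr (by
      rintro z ⟨a, ha, b, hb, rfl⟩
      refine Subgroup.mem_centralizer_iff.mpr ?_
      rintro w ⟨c, hc, rfl⟩
      exact (commute_of_comm (h.DD_D hu ha hb hc)).symm)
  have h2 : MM A u ≤ Subgroup.centralizer (UU A u : Set G) :=
    (Subgroup.closure_le _).mpr fun w hw => Subgroup.mem_centralizer_iff.mpr fun z hz =>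
      (Subgroup.mem_centralizer_iff.mp (h1 hz) w hw).symm
  exact Subgroup.mem_centralizer_iff.mp (h2 hy) x hx

theorem dMM {a v : G} (ha : a ∈ A) (hv : v ∈ MM A u) : ⁅a, v⁆ ∈ UU A u := by
  induction hv using Subgroup.closure_induction with
  | mem x hx => obtain ⟨b, hb, rfl⟩ := hx; exact gen_UU ha hb
  | one => rw [commutatorElement_one_right]; exact one_mem _
  | mul x y hx hy ihx ihy =>
    rw [mulR, conj_of_commute (h.UU_comm hu ihy hx).symm]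
    exact mul_mem ihx ihy
  | inv x hx ih =>
    have e : ⁅a, x⁻¹⁆ = x⁻¹ * ⁅a, x⁆⁻¹ * x⁻¹⁻¹ := by simp only [commutatorElement_def]; group
    rw [e, conj_of_commute (h.UU_comm hu (inv_mem ih) (inv_mem hx)).symm]
    exact inv_mem ih

theorem dmulM {a v w : G} (ha : a ∈ A) (hv : v ∈ MM A u) (hw : w ∈ MM A u) :
    ⁅a, v * w⁆ = ⁅a, v⁆ * ⁅a, w⁆ := by
  rw [mulR, conj_of_commute (h.UU_comm hu (h.dMM hu ha hw) hv).symm]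

theorem swapM {a b v : G} (ha : a ∈ A) (hb : b ∈ A) (hv : v ∈ MM A u) :
    ⁅a, ⁅b, v⁆⁆ = ⁅b, ⁅a, v⁆⁆ := by
  rw [h.swap ha hb (h.MM_le_C hu hv),
    comm_of_commute (h.UU_comm hu (h.dMM hu ha hv) (h.UU_le_MM hu (h.dMM hu hb hv))), mul_one]

theorem z0_central {a y : G} (ha : a ∈ A ⊓ Q) (hy : y ∈ C) : ⁅a, u⁆ * y = y * ⁅a, u⁆ :=
  h.CQz a ha.2 u hu.mem y hy

theorem swap_z0 {x a : G} (hx : x ∈ A ⊓ Q) (ha : a ∈ A) : ⁅x, ⁅a, u⁆⁆ = ⁅a, ⁅x, u⁆⁆ := by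
  rw [h.swap hx.1 ha hu.mem, comm_of_commute (h.z0_central hu hx (h.d1C hu a)), mul_one]

/-! ### Composites -/

theorem op_C {f : G → G} (hf : Op A f) {v : G} (hv : v ∈ C) : f v ∈ C := by
  induction hf with
  | one _ => exact h.dC _ hv
  | step _ _ ih => exact h.dC _ ih

theorem op_MM {f : G → G} (hf : Op A f) {v : G} (hv : v ∈ MM A u) : f v ∈ MM A u := by
  induction hf with
  | one ha => exact h.UU_le_MM hu (h.dMM hu ha hv)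
  | step ha _ ih => exact h.UU_le_MM hu (h.dMM hu ha ih)

theorem op_u {f : G → G} (hf : Op A f) : f u ∈ MM A u := by
  induction hf with
  | one ha => exact gen_MM ha
  | step ha _ ih => exact h.UU_le_MM hu (h.dMM hu ha ih)

theorem op_mul {f : G → G} (hf : Op A f) {v w : G} (hv : v ∈ MM A u) (hw : w ∈ MM A u) :
    f (v * w) = f v * f w := by
  induction hf with
  | one ha => exact h.dmulM hu ha hv hw
  | step ha hf ih =>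
    show ⁅_, _⁆ = _
    rw [ih, h.dmulM hu ha (h.op_MM hu hf hv) (h.op_MM hu hf hw)]

theorem op_comm {f : G → G} (hf : Op A f) {a v : G} (ha : a ∈ A) (hv : v ∈ MM A u) :
    f ⁅a, v⁆ = ⁅a, f v⁆ := by
  induction hf with
  | one hb => exact h.swapM hu hb ha hv
  | @step b g hb hg ih =>
    show ⁅b, g ⁅a, v⁆⁆ = ⁅a, ⁅b, g v⁆⁆
    rw [ih, h.swapM hu hb ha (h.op_MM hu hg hv)]

theorem op_swap {f : G → G} (hf : Op A f) :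
    ∀ {b c : G}, b ∈ A → c ∈ A → ⁅c, ⁅b, f u⁆⁆ = ⁅b, f ⁅c, u⁆⁆ := by
  induction hf with
  | @one a ha =>
    intro b c hb hc
    rw [h.swapM hu hc hb (gen_MM ha), h.swap hc ha hu.mem,
      h.dmulR b (h.LR hu c a) (h.d2C hu a c), h.fixA hb (h.L_memA hu hc ha), mul_one]
  | @step a g ha hg ih =>
    intro b c hb hc
    show ⁅c, ⁅b, ⁅a, g u⁆⁆⁆ = ⁅b, ⁅a, g ⁅c, u⁆⁆⁆
    rw [h.swapM hu hc hb (h.op_MM hu (Op.one ha) (h.op_u hu hg)), ih ha hc]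

theorem op_xrn {f : G → G} (hf : Op A f) {x r n : G} (hx : x ∈ MM A u) (hr : r ∈ R)
    (hn : n ∈ A) : ∃ r' ∈ A ⊓ R, f (x * r * n) = f x * r' := by
  induction hf with
  | @one a ha =>
    refine ⟨⁅a, r⁆, ⟨h.quadR hr ha, h.dR a hr⟩, ?_⟩
    show ⁅a, x * r * n⁆ = _
    rw [mulR, h.fixA ha hn, mul_one, mul_inv_cancel, mul_one, h.dmulR a hr (h.MM_le_C hu hx)]
  | @step a g ha hg ih =>
    obtain ⟨r', hr', e⟩ := ih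
    refine ⟨1, one_mem _, ?_⟩
    show ⁅a, g (x * r * n)⁆ = _
    rw [e, h.dmulR a hr'.2 (h.MM_le_C hu (h.op_MM hu hg hx)), h.fixA ha hr'.1]

/-- The composite `b ∘ f` kills the double commutators when `f u` is at the last stage. -/
theorem kill {f : G → G} (hf : Op A f) (hz : ∀ a ∈ A, ∀ b ∈ A, ⁅a, ⁅b, f u⁆⁆ ∈ A) {b : G}
    (hb : b ∈ A) {x : G} (hx : x ∈ UU A u) : ⁅b, f x⁆ = 1 := by
  have hM : ∀ y ∈ UU A u, y ∈ MM A u := fun y hy => h.UU_le_MM hu hy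
  have hmul : ∀ y ∈ MM A u, ∀ w ∈ MM A u, ⁅b, f (y * w)⁆ = ⁅b, f y⁆ * ⁅b, f w⁆ := fun y hy w hw =>
    h.op_mul hu (Op.step hb hf) hy hw
  induction hx using Subgroup.closure_induction with
  | mem y hy =>
    obtain ⟨a, ha, e, he, rfl⟩ := hy
    rw [h.op_comm hu hf ha (gen_MM he), h.swapM hu hb ha (h.op_MM hu hf (gen_MM he)),
      ← h.op_swap hu hf hb he, h.fixA ha (hz e he b hb)]
  | one =>
    have e := hmul 1 (one_mem _) 1 (one_mem _)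
    rw [mul_one] at e
    exact left_eq_mul.mp e
  | mul y w hy hw ihy ihw => rw [hmul y (hM y hy) w (hM w hw), ihy, ihw, mul_one]
  | inv y hy ih =>
    have e := hmul y (hM y hy) y⁻¹ (inv_mem (hM y hy))
    rw [mul_inv_cancel, ih, one_mul] at e
    rw [← e]
    have e1 := hmul 1 (one_mem _) 1 (one_mem _)
    rw [mul_one] at e1
    exact left_eq_mul.mp e1

/-- A last stage exists when the action is not already quadratic. -/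
theorem exists_last (hnot : ∃ a ∈ A, ∃ b ∈ A, ⁅a, ⁅b, u⁆⁆ ∉ A) :
    ∃ f, Op A f ∧ (∀ a ∈ A, ∀ b ∈ A, ⁅a, ⁅b, f u⁆⁆ ∈ A) ∧ ∃ b ∈ A, ⁅b, f u⁆ ∉ A := by
  by_contra hno
  push Not at hno
  obtain ⟨a, ha, b, hb, hab⟩ := hnot
  refine hab (descend (P := fun x => (∃ f, Op A f ∧ f u = x) → ∀ b ∈ A, ⁅b, x⁆ ∈ A) h.pS
    h.CS h.AS (fun a _ x hx => h.dC a hx)
    (fun _ b _ => by rw [commutatorElement_one_right]; exact one_mem _) ?_ ⁅b, u⁆ (h.d1C hu b)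
    ⟨_, Op.one hb, rfl⟩ a ha)
  rintro x - hall ⟨f, hf, rfl⟩
  exact hno f hf fun c hc d hd => hall d hd ⟨_, Op.step hd hf, rfl⟩ c hc

omit h hu [Finite G] [Fact p.Prime] in
theorem mem_C0 {c : G} : c ∈ A ⊓ Subgroup.centralizer (MM A u : Set G) ↔
    c ∈ A ∧ ∀ b ∈ A, ⁅c, ⁅b, u⁆⁆ = 1 := by
  refine ⟨fun hc => ⟨hc.1, fun b hb => comm_of_commute
    (Subgroup.mem_centralizer_iff.mp hc.2 _ (gen_MM hb)).symm⟩, fun hc => ⟨hc.1, ?_⟩⟩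
  have h1 : MM A u ≤ Subgroup.centralizer ({c} : Set G) := (Subgroup.closure_le _).mpr (by
    rintro x ⟨b, hb, rfl⟩
    exact Subgroup.mem_centralizer_iff.mpr fun y hy => by
      rw [Set.mem_singleton_iff.mp hy]; exact commute_of_comm (hc.2 b hb))
  exact Subgroup.mem_centralizer_iff.mpr fun x hx =>
    (Subgroup.mem_centralizer_iff.mp (h1 hx) c rfl).symm

theorem C0_le_Q (hnot : ∃ a ∈ A, ∃ b ∈ A, ⁅a, ⁅b, u⁆⁆ ∉ A) :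
    A ⊓ Subgroup.centralizer (MM A u : Set G) ≤ Q := by
  obtain ⟨f, hf, -, hlast⟩ := h.exists_last hu hnot
  have hzM := h.op_u hu hf
  intro c hc
  refine h.cz_le_Q (h.MM_le_C hu hzM)
    (fun a ha b hb => comm_of_commute
      (h.UU_comm hu (h.dMM hu ha hzM) (h.UU_le_MM hu (h.dMM hu hb hzM)))) hlast
    (mem_Cz.mpr ⟨hc.1, fun b hb => comm_of_commute ?_⟩)
  exact (Subgroup.mem_centralizer_iff.mp hc.2 _ (h.UU_le_MM hu (h.dMM hu hb hzM))).symm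

/-- An element of `A` moving `u` into the double commutators times `R`, `A ⊓ C` lies in `Q`. -/
theorem mem_Q_of_xrn (hnot : ∃ a ∈ A, ∃ b ∈ A, ⁅a, ⁅b, u⁆⁆ ∉ A) {c x r n : G} (hc : c ∈ A)
    (hx : x ∈ UU A u) (hr : r ∈ R) (hn : n ∈ A) (e : ⁅c, u⁆ = x * r * n) : c ∈ Q := by
  obtain ⟨f, hf, hz, hlast⟩ := h.exists_last hu hnot
  have hzM := h.op_u hu hf
  refine h.cz_le_Q (h.MM_le_C hu hzM)
    (fun a ha b hb => comm_of_commute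
      (h.UU_comm hu (h.dMM hu ha hzM) (h.UU_le_MM hu (h.dMM hu hb hzM)))) hlast
    (mem_Cz.mpr ⟨hc, fun b hb => ?_⟩)
  obtain ⟨r', hr', e'⟩ := h.op_xrn hu hf (h.UU_le_MM hu hx) hr hn
  rw [h.op_swap hu hf hb hc, e, e',
    h.dmulR b hr'.2 (h.op_C hu hf (h.MM_le_C hu (h.UU_le_MM hu hx))), h.kill hu hf hz hb hx,
    h.fixA hb hr'.1, one_mul]

end Cfg

end Cfsg.Agent.JTrans
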