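import Cfsg.Agent.JTrans.Seed

/-!
The counting: twisting the elements `⁅a, u⁆` by elements of `A ⊓ Q` gives an abelian group larger
than `A` unless `⁅A, ⁅A, u⁆⁆` lies in `Z0 ⊔ R ⊔ (A ⊓ C)`.
-/

set_option autoImplicit false
set_option linter.unusedSectionVars false
set_option linter.unusedVariables false

open scoped commutatorElement

namespace Cfsg.Agent.JTrans

variable {G : Type*} [Group G]

/-- Subgroup generated by everything commuting that `⁅A, u⁆` sees. -/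
def HH (Q R A : Subgroup G) (u : G) : Subgroup G := UU A u ⊔ R ⊔ Z0 Q A u

/-- The target of the theorem. -/
def G0 (Q C R A : Subgroup G) (u : G) : Subgroup G := Z0 Q A u ⊔ R ⊔ (A ⊓ C)

namespace Cfg

variable {p : ℕ} {S Q C R A : Subgroup G} [Finite G] [Fact p.Prime] (h : Cfg p S Q C R A) {u : G}
  (hu : Seed C A u)

include h hu

theorem Z0_le_MM : Z0 Q A u ≤ MM A u :=
  (Subgroup.closure_le _).mpr (by rintro x ⟨a, ha, rfl⟩; exact gen_MM ha.1)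

theorem HH_le_C : HH Q R A u ≤ C :=
  sup_le (sup_le ((h.UU_le_MM hu).trans (h.MM_le_C hu)) h.RC)
    ((h.Z0_le_MM hu).trans (h.MM_le_C hu))

/-- `HH` commutes with `MM`. -/
theorem HH_comm {x y : G} (hx : x ∈ HH Q R A u) (hy : y ∈ MM A u) : x * y = y * x := by
  have : HH Q R A u ≤ Subgroup.centralizer (MM A u : Set G) := by
    refine sup_le (sup_le ?_ ?_) ?_
    · exact fun z hz => Subgroup.mem_centralizer_iff.mpr fun w hw => (h.UU_comm hu hz hw).symm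
    · exact fun z hz => Subgroup.mem_centralizer_iff.mpr fun w hw =>
        (h.rC hz (h.MM_le_C hu hw)).symm
    · exact (Subgroup.closure_le _).mpr (by
        rintro z ⟨a, ha, rfl⟩
        exact Subgroup.mem_centralizer_iff.mpr fun w hw =>
          (h.z0_central hu ha (h.MM_le_C hu hw)).symm)
  exact (Subgroup.mem_centralizer_iff.mp (this hx) y hy).symm

theorem HH_normalized : A ⊓ C ≤ Subgroup.normalizer (HH Q R A u : Set G) := by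
  intro n hn
  have key : ∀ m ∈ C, ∀ v ∈ HH Q R A u, m * v * m⁻¹ ∈ HH Q R A u := fun m hm v hv => by
    rw [conj_eq]
    exact mul_mem (Subgroup.mem_sup_left (Subgroup.mem_sup_right
      (h.CC m hm v (h.HH_le_C hu hv)))) hv
  refine Subgroup.mem_normalizer_iff.mpr fun v => ⟨key n hn.2 v, fun hv => ?_⟩
  have := key n⁻¹ (inv_mem hn.2) _ hv
  simpa [mul_assoc] using this

/-- The elements `⁅x, u⁆` times `UU ⊔ R`. -/
theorem HH_form {v : G} (hv : v ∈ HH Q R A u) :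
    ∃ x ∈ A ⊓ Q, ∃ w ∈ UU A u ⊔ R, v = ⁅x, u⁆ * w := by
  have hWC : UU A u ⊔ R ≤ C := sup_le ((h.UU_le_MM hu).trans (h.MM_le_C hu)) h.RC
  have hzz : ∀ x ∈ A ⊓ Q, ∀ y ∈ A ⊓ Q,
      ⁅x, u⁆ * ⁅y, u⁆ = ⁅x * y, u⁆ * ⁅x, ⁅y, u⁆⁆⁻¹ := fun x hx y hy => by
    have hxy : x * y ∈ A ⊓ Q := mul_mem hx hy
    have c1 : ⁅x, ⁅y, u⁆⁆⁻¹ * ⁅x * y, u⁆ = ⁅x * y, u⁆ * ⁅x, ⁅y, u⁆⁆⁻¹ :=
      (h.z0_central hu hxy (inv_mem (h.d2C hu x y))).symm
    rw [← c1, mulL', h.z0_central hu hx (h.d1C hu y)]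
    group
  let K : Subgroup G :=
    { carrier := {v | ∃ x ∈ A ⊓ Q, ∃ w ∈ UU A u ⊔ R, v = ⁅x, u⁆ * w}
      one_mem' := ⟨1, one_mem _, 1, one_mem _, by rw [commutatorElement_one_left, one_mul]⟩
      mul_mem' := by
        rintro _ _ ⟨x, hx, w, hw, rfl⟩ ⟨y, hy, w', hw', rfl⟩
        refine ⟨x * y, mul_mem hx hy, ⁅x, ⁅y, u⁆⁆⁻¹ * (w * w'),
          mul_mem (inv_mem (Subgroup.mem_sup_left (gen_UU hx.1 hy.1))) (mul_mem hw hw'), ?_⟩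
        calc ⁅x, u⁆ * w * (⁅y, u⁆ * w') = ⁅x, u⁆ * (w * ⁅y, u⁆) * w' := by group
          _ = ⁅x, u⁆ * (⁅y, u⁆ * w) * w' := by rw [h.z0_central hu hy (hWC hw)]
          _ = (⁅x, u⁆ * ⁅y, u⁆) * (w * w') := by group
          _ = _ := by rw [hzz x hx y hy]; group
      inv_mem' := by
        rintro _ ⟨x, hx, w, hw, rfl⟩
        have hx' := inv_mem hx
        refine ⟨x⁻¹, hx', ⁅x, ⁅x⁻¹, u⁆⁆ * w⁻¹,
          mul_mem (Subgroup.mem_sup_left (gen_UU hx.1 hx'.1)) (inv_mem hw), ?_⟩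
        refine inv_eq_of_mul_eq_one_right ?_
        calc ⁅x, u⁆ * w * (⁅x⁻¹, u⁆ * (⁅x, ⁅x⁻¹, u⁆⁆ * w⁻¹))
            = ⁅x, u⁆ * (w * ⁅x⁻¹, u⁆) * (⁅x, ⁅x⁻¹, u⁆⁆ * w⁻¹) := by group
          _ = ⁅x, u⁆ * (⁅x⁻¹, u⁆ * w) * (⁅x, ⁅x⁻¹, u⁆⁆ * w⁻¹) := by
              rw [h.z0_central hu hx' (hWC hw)]
          _ = (⁅x, u⁆ * ⁅x⁻¹, u⁆) * (w * ⁅x, ⁅x⁻¹, u⁆⁆) * w⁻¹ := by group
          _ = ⁅x, ⁅x⁻¹, u⁆⁆⁻¹ * (w * ⁅x, ⁅x⁻¹, u⁆⁆) * w⁻¹ := by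
              rw [hzz x hx x⁻¹ hx', mul_inv_cancel, commutatorElement_one_left, one_mul]
          _ = ⁅x, ⁅x⁻¹, u⁆⁆⁻¹ * (⁅x, ⁅x⁻¹, u⁆⁆ * w) * w⁻¹ := by
              rw [h.HH_comm hu (Subgroup.mem_sup_left hw : w ∈ HH Q R A u)
                (h.UU_le_MM hu (gen_UU hx.1 hx'.1))]
          _ = 1 := by group }
  have hle : HH Q R A u ≤ K := sup_le
    (fun w hw => ⟨1, one_mem _, w, hw, by rw [commutatorElement_one_left, one_mul]⟩)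
    ((Subgroup.closure_le _).mpr (by
      rintro x ⟨a, ha, rfl⟩
      exact ⟨a, ha, 1, one_mem _, (mul_one _).symm⟩))
  exact hle hv

theorem mem_Q_of_HH (hnot : ∃ a ∈ A, ∃ b ∈ A, ⁅a, ⁅b, u⁆⁆ ∉ A) {c : G} (hc : c ∈ A)
    (hcu : ⁅c, u⁆ ∈ HH Q R A u ⊔ (A ⊓ C)) : c ∈ Q := by
  have h1 : ⁅c, u⁆ ∈ ((HH Q R A u ⊔ (A ⊓ C) : Subgroup G) : Set G) := hcu
  rw [Subgroup.coe_mul_of_right_le_normalizer_left _ _ (h.HH_normalized hu)] at h1
  obtain ⟨v, hv, n, hn, e⟩ := h1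
  dsimp only at e
  obtain ⟨x, hx, w, hw, rfl⟩ := h.HH_form hu hv
  have hx' := inv_mem hx
  -- `⁅x⁻¹ * c, u⁆` has no `Z0` part
  have e2 : ⁅x⁻¹ * c, u⁆ = ⁅x⁻¹, ⁅c, u⁆⁆ * (⁅x⁻¹, ⁅x, u⁆⁆⁻¹ * w) * n := by
    have hinv : ⁅x⁻¹, ⁅x, u⁆⁆ * ⁅x, u⁆ * ⁅x⁻¹, u⁆ = 1 := by
      rw [← mulL', inv_mul_cancel, commutatorElement_one_left]
    have hz : ⁅x, u⁆ * ⁅x⁻¹, u⁆ = ⁅x⁻¹, ⁅x, u⁆⁆⁻¹ :=
      eq_inv_of_mul_eq_one_right (by rw [← mul_assoc]; exact hinv)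
    have hwn : w * n ∈ C :=
      mul_mem ((sup_le ((h.UU_le_MM hu).trans (h.MM_le_C hu)) h.RC : UU A u ⊔ R ≤ C) hw) hn.2
    rw [mulL', ← e]
    calc ⁅x⁻¹, ⁅x, u⁆ * w * n⁆ * (⁅x, u⁆ * w * n) * ⁅x⁻¹, u⁆
        = ⁅x⁻¹, ⁅x, u⁆ * w * n⁆ * (⁅x, u⁆ * ((w * n) * ⁅x⁻¹, u⁆)) := by group
      _ = ⁅x⁻¹, ⁅x, u⁆ * w * n⁆ * (⁅x, u⁆ * (⁅x⁻¹, u⁆ * (w * n))) := by
          rw [h.z0_central hu hx' hwn]
      _ = ⁅x⁻¹, ⁅x, u⁆ * w * n⁆ * ((⁅x, u⁆ * ⁅x⁻¹, u⁆) * w) * n := by group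
      _ = _ := by rw [hz]
  have hw' : ⁅x⁻¹, ⁅c, u⁆⁆ * (⁅x⁻¹, ⁅x, u⁆⁆⁻¹ * w) ∈ UU A u ⊔ R :=
    mul_mem (Subgroup.mem_sup_left (gen_UU hx'.1 hc))
      (mul_mem (inv_mem (Subgroup.mem_sup_left (gen_UU hx'.1 hx.1))) hw)
  have h2 : ⁅x⁻¹, ⁅c, u⁆⁆ * (⁅x⁻¹, ⁅x, u⁆⁆⁻¹ * w) ∈
      ((UU A u ⊔ R : Subgroup G) : Set G) := hw'
  rw [Subgroup.coe_mul_of_right_le_normalizer_left (UU A u) R] at h2
  swap
  · intro r hr
    refine Subgroup.mem_normalizer_iff.mpr fun y => ?_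
    constructor
    · intro hy
      rwa [conj_of_commute (h.rC hr (h.MM_le_C hu (h.UU_le_MM hu hy)))]
    · intro hy
      have h3 := h.rC (inv_mem hr) (h.MM_le_C hu (h.UU_le_MM hu hy))
      have : y = r * y * r⁻¹ := by
        calc y = r⁻¹ * (r * y * r⁻¹) * r := by group
          _ = r * y * r⁻¹ * r⁻¹ * r := by rw [h3]
          _ = _ := by group
      exact this ▸ hy
  obtain ⟨y, hy, r, hr, e3⟩ := h2
  dsimp only at e3
  have := h.mem_Q_of_xrn hu hnot (mul_mem hx'.1 hc) hy hr hn.1 (by rw [e2, ← e3])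
  have h4 := mul_mem hx.2 this
  rwa [mul_inv_cancel_left] at h4

/-! ### The twist -/

/-- The elements of `R` carried into `A` by some `⁅x, u⁆`. -/
def Psi : Subgroup G where
  carrier := {r | r ∈ R ∧ ∃ x ∈ A ⊓ Q, r * ⁅x, u⁆ ∈ A}
  one_mem' := ⟨one_mem _, 1, one_mem _, by rw [commutatorElement_one_left, mul_one]; exact one_mem _⟩
  mul_mem' := by
    rintro r s ⟨hr, x, hx, hrx⟩ ⟨hs, y, hy, hsy⟩
    refine ⟨mul_mem hr hs, x * y, mul_mem hx hy, ?_⟩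
    have e1 : x * ⁅y, u⁆ * x⁻¹ = ⁅y, u⁆ := by
      have h1 : x * (s * ⁅y, u⁆) * x⁻¹ = s * ⁅y, u⁆ := conj_of_commute (h.commA hx.1 hsy)
      have h2 : x * s * x⁻¹ = s := conj_of_commute (h.Rc s hs x hx.2).symm
      have h3 : x * s * x⁻¹ * (x * ⁅y, u⁆ * x⁻¹) = s * ⁅y, u⁆ := by rw [← h1]; group
      rw [h2] at h3
      exact mul_left_cancel h3
    rw [mulL, e1]
    have e2 : r * s * (⁅y, u⁆ * ⁅x, u⁆) = (r * ⁅x, u⁆) * (s * ⁅y, u⁆) := by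
      calc r * s * (⁅y, u⁆ * ⁅x, u⁆) = r * ((s * ⁅y, u⁆) * ⁅x, u⁆) := by group
        _ = r * (⁅x, u⁆ * (s * ⁅y, u⁆)) := by
            rw [h.z0_central hu hx (mul_mem (h.RC hs) (h.d1C hu y))]
        _ = _ := by group
    rw [e2]
    exact mul_mem hrx hsy
  inv_mem' := by
    rintro r ⟨hr, x, hx, hrx⟩
    refine ⟨inv_mem hr, x⁻¹, inv_mem hx, ?_⟩
    have e1 : x⁻¹ * ⁅x, u⁆ * x = ⁅x, u⁆ := by
      have h1 : x⁻¹ * (r * ⁅x, u⁆) * x⁻¹⁻¹ = r * ⁅x, u⁆ :=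
        conj_of_commute (h.commA (inv_mem hx.1) hrx)
      have h2 : x⁻¹ * r * x⁻¹⁻¹ = r := conj_of_commute (h.Rc r hr _ (inv_mem hx.2)).symm
      have h3 : x⁻¹ * r * x⁻¹⁻¹ * (x⁻¹ * ⁅x, u⁆ * x) = r * ⁅x, u⁆ := by rw [← h1]; group
      rw [h2] at h3
      exact mul_left_cancel h3
    have e2 : ⁅x⁻¹, u⁆ = ⁅x, u⁆⁻¹ := by
      rw [show ⁅x⁻¹, u⁆ = (x⁻¹ * ⁅x, u⁆ * x)⁻¹ by simp only [commutatorElement_def]; group, e1]
    rw [e2, ← mul_inv_rev, h.z0_central hu hx (h.RC hr)]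
    exact inv_mem hrx

theorem mem_Psi {r : G} : r ∈ Psi h hu ↔ r ∈ R ∧ ∃ x ∈ A ⊓ Q, r * ⁅x, u⁆ ∈ A := Iff.rfl

theorem Psi_of_A {r : G} (hr : r ∈ R) (hrA : r ∈ A) : r ∈ Psi h hu :=
  ⟨hr, 1, one_mem _, by rw [commutatorElement_one_left, mul_one]; exact hrA⟩

theorem tt_Psi {a b : G} (ha : a ∈ A) (hb : b ∈ A) : tt u a b ∈ Psi h hu :=
  h.Psi_of_A hu (h.ttR hu a b) (h.tt_memA hu ha hb)

/-- The elements of `A` whose twisting is possible. -/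
def II : Subgroup G where
  carrier := {a | a ∈ A ∧ ph u a ∈ Psi h hu}
  one_mem' := ⟨one_mem _, by
    rw [ph, commutatorElement_one_left, commutatorElement_one_right]; exact one_mem _⟩
  mul_mem' := by
    rintro a b ⟨ha, hpa⟩ ⟨hb, hpb⟩
    refine ⟨mul_mem ha hb, ?_⟩
    rw [h.ph_mul hu ha hb]
    exact mul_mem (mul_mem (h.tt_Psi hu ha hb) hpb) hpa
  inv_mem' := by
    rintro a ⟨ha, hpa⟩
    refine ⟨inv_mem ha, ?_⟩
    have e := h.ph_mul hu ha (inv_mem ha)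
    rw [mul_inv_cancel] at e
    have e1 : ph u (1 : G) = 1 := by
      rw [ph, commutatorElement_one_left, commutatorElement_one_right]
    rw [e1] at e
    have e2 : ph u a⁻¹ = (tt u a a⁻¹)⁻¹ * (ph u a)⁻¹ := by
      calc ph u a⁻¹ = (tt u a a⁻¹)⁻¹ * (tt u a a⁻¹ * ph u a⁻¹ * ph u a) * (ph u a)⁻¹ := by group
        _ = _ := by rw [← e]; group
    rw [e2]
    exact mul_mem (inv_mem (h.tt_Psi hu ha (inv_mem ha))) (inv_mem hpa)

theorem mem_II {a : G} : a ∈ II h hu ↔ a ∈ A ∧ ph u a ∈ Psi h hu := Iff.rfl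

theorem A0_le_II : A ⊓ Q ≤ II h hu := fun x hx => ⟨hx.1, by
  rw [ph, comm_of_commute (h.z0_central hu hx hu.mem).symm]; exact one_mem _⟩

theorem relIndex_II_le : (II h hu).relIndex A ≤ (Psi h hu).relIndex R := by
  set f : A ⧸ (II h hu).subgroupOf A → R ⧸ (Psi h hu).subgroupOf R := fun q =>
    QuotientGroup.mk ⟨ph u (q.out : G), h.phR hu _⟩ with hf
  refine Nat.card_le_card_of_injective f fun q q' hqq => ?_
  simp only [hf, QuotientGroup.eq, Subgroup.mem_subgroupOf, Subgroup.coe_mul,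
    Subgroup.coe_inv] at hqq
  rw [← QuotientGroup.out_eq' q, ← QuotientGroup.out_eq' q', QuotientGroup.eq,
    Subgroup.mem_subgroupOf]
  simp only [Subgroup.coe_mul, Subgroup.coe_inv]
  set a := ((q.out : A) : G)
  set b := ((q'.out : A) : G)
  have ha : a ∈ A := q.out.2
  have hb : b ∈ A := q'.out.2
  have hk : a⁻¹ * b ∈ A := mul_mem (inv_mem ha) hb
  refine ⟨hk, ?_⟩
  set k := a⁻¹ * b
  have e := h.ph_mul hu ha hk
  rw [show a * k = b from mul_inv_cancel_left a b] at e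
  have hphk : ph u k * ph u a = ph u a * ph u k := h.rC (h.phR hu k) (h.RC (h.phR hu a))
  have : ph u k = (tt u a k)⁻¹ * ((ph u a)⁻¹ * ph u b) := by
    have c1 : tt u a k * (ph u a)⁻¹ = (ph u a)⁻¹ * tt u a k :=
      h.rC (h.ttR hu a k) (inv_mem (h.RC (h.phR hu a)))
    rw [e]
    calc ph u k = (tt u a k)⁻¹ * (tt u a k * (ph u a)⁻¹) * (ph u a * ph u k) := by group
      _ = (tt u a k)⁻¹ * ((ph u a)⁻¹ * tt u a k) * (ph u k * ph u a) := by rw [c1, hphk]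
      _ = _ := by group
  rw [this]
  exact mul_mem (inv_mem (h.tt_Psi hu ha hk)) hqq

theorem exists_twist {a : G} (ha : a ∈ II h hu) :
    ∃ x ∈ A ⊓ Q, ∃ s ∈ R, s * s = (ph u a)⁻¹ ∧ s * ⁅x, u⁆ ∈ A := by
  obtain ⟨k, hk⟩ := h.odd_order (h.RS (inv_mem (h.phR hu a)))
  obtain ⟨hs, x, hx, hsx⟩ := pow_mem (inv_mem ha.2 : (ph u a)⁻¹ ∈ Psi h hu) k
  exact ⟨x, hx, _, hs, by rw [← pow_add, ← two_mul, pow_mul, hk], hsx⟩

/-- `⁅x, u⁆` lies in `R` times `A`, so everything sees it through `R`. -/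
theorem d_twist {x s : G} (hx : x ∈ A ⊓ Q) (hs : s ∈ R) (hsx : s * ⁅x, u⁆ ∈ A) {a : G}
    (ha : a ∈ A) : ⁅a, ⁅x, u⁆⁆ = ⁅a, s⁆⁻¹ := by
  have e := h.fixA ha hsx
  rw [mulR, conj_of_commute (h.rC hs (h.d2C hu a x))] at e
  exact eq_inv_of_mul_eq_one_right e

/-- **The theorem**: `⁅A, ⁅A, u⁆⁆` lies in `Z0 ⊔ R ⊔ (A ⊓ C)`. -/
theorem core {a₀ b₀ : G} (ha₀ : a₀ ∈ A) (hb₀ : b₀ ∈ A) : ⁅a₀, ⁅b₀, u⁆⁆ ∈ G0 Q C R A u := by
  classical
  by_contra hw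
  set w := ⁅a₀, ⁅b₀, u⁆⁆ with hwdef
  have hnot : ∃ a ∈ A, ∃ b ∈ A, ⁅a, ⁅b, u⁆⁆ ∉ A :=
    ⟨a₀, ha₀, b₀, hb₀, fun hA => hw (Subgroup.mem_sup_right ⟨hA, h.d2C hu a₀ b₀⟩)⟩
  have hwU : w ∈ UU A u := gen_UU ha₀ hb₀
  set C0 := A ⊓ Subgroup.centralizer (MM A u : Set G) with hC0
  have hC0Q : C0 ≤ Q := h.C0_le_Q hu hnot
  have hC0A0 : C0 ≤ A ⊓ Q := le_inf inf_le_left hC0Q
  set I := II h hu with hI
  set P := Psi h hu with hP
  -- twisting elements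
  have hchoice : ∀ a : G, ∃ x s : G, a ∈ I →
      x ∈ A ⊓ Q ∧ s ∈ R ∧ s * s = (ph u a)⁻¹ ∧ s * ⁅x, u⁆ ∈ A := fun a => by
    by_cases ha : a ∈ I
    · obtain ⟨x, hx, s, hs, h1, h2⟩ := h.exists_twist hu ha
      exact ⟨x, s, fun _ => ⟨hx, hs, h1, h2⟩⟩
    · exact ⟨1, 1, fun h' => absurd h' ha⟩
  choose xa sa hxs using hchoice
  set gens : Set G := (C0 : Set G) ∪ (UU A u : Set G) ∪ (R : Set G) ∪
    {y | ∃ x ∈ A ⊓ Q, ⁅x, u⁆ = y} ∪ {y | ∃ a ∈ I, ⁅a, u⁆ * xa a = y} with hgens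
  set X := Subgroup.closure gens with hX
  have hXS : X ≤ S := (Subgroup.closure_le _).mpr (by
    rintro y ((((hy | hy) | hy) | ⟨x, hx, rfl⟩) | ⟨a, ha, rfl⟩)
    · exact h.AS hy.1
    · exact h.CS (h.MM_le_C hu (h.UU_le_MM hu hy))
    · exact h.RS hy
    · exact h.CS (h.d1C hu x)
    · exact mul_mem (h.CS (h.d1C hu a)) (h.AS (hxs a ha).1.1))
  have hC0_MM : ∀ c ∈ C0, ∀ y ∈ MM A u, c * y = y * c := fun c hc y hy =>
    (Subgroup.mem_centralizer_iff.mp hc.2 y hy).symm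
  -- the twisting element commutes with `UU`, `R` and `Z0`
  have hx_UU : ∀ a ∈ I, ∀ y ∈ UU A u, xa a * y = y * xa a := by
    intro a ha y hy
    obtain ⟨hx, hs, -, hsx⟩ := hxs a ha
    have h1 : UU A u ≤ Subgroup.centralizer ({xa a} : Set G) := (Subgroup.closure_le _).mpr (by
      rintro z ⟨c, hc, b, hb, rfl⟩
      refine Subgroup.mem_centralizer_iff.mpr fun t ht => ?_
      rw [Set.mem_singleton_iff.mp ht]
      refine commute_of_comm ?_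
      rw [h.swapM hu hx.1 hc (gen_MM hb), h.swap_z0 hu hx hb, h.d_twist hu hx hs hsx hb]
      exact h.fixA hc (inv_mem (h.quadR hs hb)))
    exact Subgroup.mem_centralizer_iff.mp (h1 hy) _ rfl
  have hx_Z : ∀ a ∈ I, ∀ x ∈ A ⊓ Q, xa a * ⁅x, u⁆ = ⁅x, u⁆ * xa a := by
    intro a ha x hx
    obtain ⟨hxa, hs, -, hsx⟩ := hxs a ha
    refine commute_of_comm ?_
    rw [h.swap_z0 hu hxa hx.1, h.d_twist hu hxa hs hsx hx.1, h.rQ hx.2 hs, inv_one]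
  have he_base : ∀ a ∈ I, ∀ y, y ∈ (C0 : Set G) ∪ (UU A u : Set G) ∪ (R : Set G) ∪
      {y | ∃ x ∈ A ⊓ Q, ⁅x, u⁆ = y} → (⁅a, u⁆ * xa a) * y = y * (⁅a, u⁆ * xa a) := by
    intro a ha y hy
    have hx := (hxs a ha).1
    have key : ⁅a, u⁆ * y = y * ⁅a, u⁆ ∧ xa a * y = y * xa a := by
      rcases hy with ((hy | hy) | hy) | ⟨x, hx', rfl⟩
      · exact ⟨(hC0_MM y hy _ (gen_MM ha.1)).symm, h.commA hx.1 hy.1⟩
      · exact ⟨(h.UU_comm hu hy (gen_MM ha.1)).symm, hx_UU a ha y hy⟩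
      · exact ⟨(h.rC hy (h.d1C hu a)).symm, (h.Rc y hy _ hx.2).symm⟩
      · exact ⟨(h.z0_central hu hx' (h.d1C hu a)).symm, hx_Z a ha x hx'⟩
    exact (Commute.mul_left (show Commute ⁅a, u⁆ y from key.1) (show Commute (xa a) y from key.2)).eq
  have hee : ∀ a ∈ I, ∀ b ∈ I,
      (⁅a, u⁆ * xa a) * (⁅b, u⁆ * xa b) = (⁅b, u⁆ * xa b) * (⁅a, u⁆ * xa a) := by
    intro a ha b hb
    obtain ⟨hxa, hsa, hsa2, hsxa⟩ := hxs a ha
    obtain ⟨hxb, hsb, hsb2, hsxb⟩ := hxs b hb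
    set q := ⁅b, sa a⁆
    set q' := ⁅a, sa b⁆
    have hqR : q ∈ R := h.dR b hsa
    have hqR' : q' ∈ R := h.dR a hsb
    have hqA : q ∈ A := h.quadR hsa hb.1
    have hqA' : q' ∈ A := h.quadR hsb ha.1
    have e1 : xa a * ⁅b, u⁆ = q⁻¹ * ⁅b, u⁆ * xa a := by
      rw [show q⁻¹ = ⁅xa a, ⁅b, u⁆⁆ by
        rw [h.swap_z0 hu hxa hb.1, h.d_twist hu hxa hsa hsxa hb.1]]
      simp only [commutatorElement_def]; group
    have e2 : xa b * ⁅a, u⁆ = q'⁻¹ * ⁅a, u⁆ * xa b := by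
      rw [show q'⁻¹ = ⁅xa b, ⁅a, u⁆⁆ by
        rw [h.swap_z0 hu hxb ha.1, h.d_twist hu hxb hsb hsxb ha.1]]
      simp only [commutatorElement_def]; group
    set L := ⁅⁅a, u⁆, ⁅b, u⁆⁆ with hL
    have hLA : L ∈ A := h.L_memA hu ha.1 hb.1
    have hq2 : q * q = ⁅b, ph u a⁆⁻¹ := by
      rw [← h.dmulR b hsa (h.RC hsa), hsa2]
      refine eq_inv_of_mul_eq_one_right ?_
      rw [← h.dmulR b (inv_mem (h.phR hu a)) (h.RC (h.phR hu a)), mul_inv_cancel,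
        commutatorElement_one_right]
    have hq2' : q' * q' = ⁅a, ph u b⁆⁻¹ := by
      rw [← h.dmulR a hsb (h.RC hsb), hsb2]
      refine eq_inv_of_mul_eq_one_right ?_
      rw [← h.dmulR a (inv_mem (h.phR hu b)) (h.RC (h.phR hu b)), mul_inv_cancel,
        commutatorElement_one_right]
    have hL2 : L * q⁻¹ * q' = 1 := by
      rw [← Subgroup.mem_bot]
      refine h.mem_of_sq (h.AS (mul_mem (mul_mem hLA (inv_mem hqA)) hqA')) ?_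
      rw [Subgroup.mem_bot, pow_two]
      have hm : L * q⁻¹ ∈ A := mul_mem hLA (inv_mem hqA)
      calc L * q⁻¹ * q' * (L * q⁻¹ * q')
          = L * q⁻¹ * (q' * (L * q⁻¹)) * q' := by group
        _ = L * q⁻¹ * ((L * q⁻¹) * q') * q' := by rw [h.commA hqA' hm]
        _ = L * (q⁻¹ * L) * q⁻¹ * (q' * q') := by group
        _ = L * (L * q⁻¹) * q⁻¹ * (q' * q') := by rw [h.commA (inv_mem hqA) hLA]
        _ = L * L * (q * q)⁻¹ * (q' * q') := by group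
        _ = 1 := by rw [h.L_sq hu ha.1 hb.1, hq2, hq2']; group
    have hq : L * q⁻¹ = q'⁻¹ := eq_inv_of_mul_eq_one_left hL2
    have e3 : ⁅a, u⁆ * ⁅b, u⁆ = L * (⁅b, u⁆ * ⁅a, u⁆) := by
      rw [hL]; simp only [commutatorElement_def]; group
    have c1 : ⁅a, u⁆ * q⁻¹ = q⁻¹ * ⁅a, u⁆ := (h.rC (inv_mem hqR) (h.d1C hu a)).symm
    have c2 : ⁅b, u⁆ * q'⁻¹ = q'⁻¹ * ⁅b, u⁆ := (h.rC (inv_mem hqR') (h.d1C hu b)).symm
    calc ⁅a, u⁆ * xa a * (⁅b, u⁆ * xa b)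
        = ⁅a, u⁆ * (xa a * ⁅b, u⁆) * xa b := by group
      _ = (⁅a, u⁆ * q⁻¹) * ⁅b, u⁆ * (xa a * xa b) := by rw [e1]; group
      _ = q⁻¹ * (⁅a, u⁆ * ⁅b, u⁆) * (xa a * xa b) := by rw [c1]; group
      _ = (q⁻¹ * L) * (⁅b, u⁆ * ⁅a, u⁆) * (xa a * xa b) := by rw [e3]; group
      _ = q'⁻¹ * (⁅b, u⁆ * ⁅a, u⁆) * (xa b * xa a) := by
          rw [h.commA (inv_mem hqA) hLA, hq, h.commA hxa.1 hxb.1]
      _ = (⁅b, u⁆ * q'⁻¹) * ⁅a, u⁆ * (xa b * xa a) := by rw [c2]; group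
      _ = ⁅b, u⁆ * (xa b * ⁅a, u⁆) * xa a := by rw [e2]; group
      _ = _ := by group
  have hbase : ∀ y, y ∈ (C0 : Set G) ∪ (UU A u : Set G) ∪ (R : Set G) ∪
      {y | ∃ x ∈ A ⊓ Q, ⁅x, u⁆ = y} → ∀ z, z ∈ (C0 : Set G) ∪ (UU A u : Set G) ∪ (R : Set G) ∪
      {y | ∃ x ∈ A ⊓ Q, ⁅x, u⁆ = y} → y * z = z * y := by
    have hMC : ∀ y, y ∈ (UU A u : Set G) ∪ (R : Set G) ∪ {y | ∃ x ∈ A ⊓ Q, ⁅x, u⁆ = y} →
        y ∈ HH Q R A u ∧ ∀ c ∈ C0, c * y = y * c := by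
      rintro y ((hy | hy) | ⟨x, hx, rfl⟩)
      · exact ⟨Subgroup.mem_sup_left (Subgroup.mem_sup_left hy),
          fun c hc => hC0_MM c hc y (h.UU_le_MM hu hy)⟩
      · exact ⟨Subgroup.mem_sup_left (Subgroup.mem_sup_right hy),
          fun c hc => (h.Rc y hy c (hC0Q hc)).symm⟩
      · exact ⟨Subgroup.mem_sup_right (Subgroup.subset_closure ⟨x, hx, rfl⟩),
          fun c hc => hC0_MM c hc _ (gen_MM hx.1)⟩
    have hHH : ∀ y ∈ HH Q R A u, ∀ z ∈ HH Q R A u, y * z = z * y := by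
      intro y hy z hz
      have : HH Q R A u ≤ Subgroup.centralizer ({y} : Set G) := by
        refine sup_le (sup_le ?_ ?_) ?_ <;> intro t ht <;>
          refine Subgroup.mem_centralizer_iff.mpr fun v hv => ?_ <;>
          rw [Set.mem_singleton_iff.mp hv]
        · exact h.HH_comm hu hy (h.UU_le_MM hu ht)
        · exact (h.rC ht (h.HH_le_C hu hy)).symm
        · exact h.HH_comm hu hy (h.Z0_le_MM hu ht)
      exact Subgroup.mem_centralizer_iff.mp (this hz) y rfl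
    intro y hy z hz
    have split : ∀ y, y ∈ (C0 : Set G) ∪ (UU A u : Set G) ∪ (R : Set G) ∪
        {y | ∃ x ∈ A ⊓ Q, ⁅x, u⁆ = y} → y ∈ C0 ∨
        y ∈ (UU A u : Set G) ∪ (R : Set G) ∪ {y | ∃ x ∈ A ⊓ Q, ⁅x, u⁆ = y} := by
      rintro y (((hy | hy) | hy) | hy)
      exacts [Or.inl hy, Or.inr (Or.inl (Or.inl hy)), Or.inr (Or.inl (Or.inr hy)), Or.inr (Or.inr hy)]
    rcases split y hy with hy | hy <;> rcases split z hz with hz | hz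
    · exact h.commA hy.1 hz.1
    · exact (hMC z hz).2 y hy
    · exact ((hMC y hy).2 z hz).symm
    · exact hHH y (hMC y hy).1 z (hMC z hz).1
  have hXab : IsMulCommutative X := comm_closure (by
    rintro y (hy | ⟨a, ha, rfl⟩) z (hz | ⟨b, hb, rfl⟩)
    · exact hbase y hy z hz
    · exact (he_base b hb y hy).symm
    · exact he_base a ha z hz
    · exact hee a ha b hb)
  have hcard : Nat.card X ≤ Nat.card A := h.hA.2.2 X hXS hXab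
  have hC0X : C0 ≤ X := fun c hc =>
    Subgroup.subset_closure (Or.inl (Or.inl (Or.inl (Or.inl hc))))
  -- the injection
  have hwX : w ∈ X := Subgroup.subset_closure (Or.inl (Or.inl (Or.inl (Or.inr hwU))))
  have hmem : ∀ (i : I) (y : (A ⊓ Q : Subgroup G)) (r : R) (k : ℕ),
      ⁅(i : G), u⁆ * xa i * (⁅(y : G), u⁆ * r * w ^ k) ∈ X := fun i y r k =>
    mul_mem (Subgroup.subset_closure (Or.inr ⟨i, i.2, rfl⟩))
      (mul_mem (mul_mem (Subgroup.subset_closure (Or.inl (Or.inr ⟨y, y.2, rfl⟩)))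
        (Subgroup.subset_closure (Or.inl (Or.inl (Or.inr r.2)))))
        (pow_mem hwX k))
  let F : (I ⧸ (A ⊓ Q).subgroupOf I) × ((A ⊓ Q : Subgroup G) ⧸ C0.subgroupOf (A ⊓ Q)) ×
      (R ⧸ P.subgroupOf R) × Fin 2 → X ⧸ C0.subgroupOf X := fun t =>
    QuotientGroup.mk ⟨_, hmem t.1.out t.2.1.out t.2.2.1.out t.2.2.2⟩
  have hFinj : Function.Injective F := by
    rintro ⟨qi, qy, qr, k⟩ ⟨qi', qy', qr', k'⟩ hFF
    simp only [F, QuotientGroup.eq, Subgroup.mem_subgroupOf, Subgroup.coe_mul,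
      Subgroup.coe_inv] at hFF
    set a := ((qi.out : I) : G) with hadef
    set a' := ((qi'.out : I) : G) with ha'def
    set y := ((qy.out : (A ⊓ Q : Subgroup G)) : G) with hydef
    set y' := ((qy'.out : (A ⊓ Q : Subgroup G)) : G) with hy'def
    set r := ((qr.out : R) : G) with hrdef
    set r' := ((qr'.out : R) : G) with hr'def
    have haI : a ∈ I := qi.out.2
    have ha'I : a' ∈ I := qi'.out.2
    have ha : a ∈ A := haI.1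
    have ha' : a' ∈ A := ha'I.1
    have hy : y ∈ A ⊓ Q := qy.out.2
    have hy' : y' ∈ A ⊓ Q := qy'.out.2
    have hr : r ∈ R := qr.out.2
    have hr' : r' ∈ R := qr'.out.2
    set rest := ⁅y, u⁆ * r * w ^ (k : ℕ) with hrest
    set rest' := ⁅y', u⁆ * r' * w ^ (k' : ℕ) with hrest'
    have hres : ∀ (y r : G) (k : ℕ), y ∈ A ⊓ Q → r ∈ R → ⁅y, u⁆ * r * w ^ k ∈ HH Q R A u :=
      fun y r k hy hr => mul_mem (mul_mem (Subgroup.mem_sup_right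
        (Subgroup.subset_closure ⟨y, hy, rfl⟩))
        (Subgroup.mem_sup_left (Subgroup.mem_sup_right hr)))
        (Subgroup.mem_sup_left (Subgroup.mem_sup_left (pow_mem hwU k)))
    have hR1 : rest ∈ HH Q R A u := hres y r k hy hr
    have hR1' : rest' ∈ HH Q R A u := hres y' r' k' hy' hr'
    have hxc : ∀ a ∈ I, ∀ (y r : G) (k : ℕ), y ∈ A ⊓ Q → r ∈ R →
        xa a * (⁅y, u⁆ * r * w ^ k) = ⁅y, u⁆ * r * w ^ k * xa a := fun a ha y r k hy hr =>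
      (((show Commute (xa a) ⁅y, u⁆ from hx_Z a ha y hy).mul_right
        (show Commute (xa a) r from (h.Rc r hr _ (hxs a ha).1.2).symm)).mul_right
        ((show Commute (xa a) w from hx_UU a ha w hwU).pow_right k)).eq
    -- both sides in `C`
    set δ := ⁅a', u⁆⁻¹ * ⁅a, u⁆ with hδ
    have hn0 : rest'⁻¹ * δ * rest ∈ A ⊓ C := by
      refine Subgroup.mem_inf.mpr ⟨?_, mul_mem (mul_mem (inv_mem (h.HH_le_C hu hR1'))
        (mul_mem (inv_mem (h.d1C hu a')) (h.d1C hu a))) (h.HH_le_C hu hR1)⟩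
      have h1 : (⁅a, u⁆ * xa a * rest)⁻¹ * (⁅a', u⁆ * xa a' * rest') ∈ A := hFF.1
      rw [mul_assoc ⁅a, u⁆ (xa a) rest, mul_assoc ⁅a', u⁆ (xa a') rest', hrest, hrest',
        hxc a haI y r k hy hr, hxc a' ha'I y' r' k' hy' hr', ← hrest, ← hrest'] at h1
      have hxA : xa a ∈ A := (hxs a haI).1.1
      have hxA' : xa a' ∈ A := (hxs a' ha'I).1.1
      have h2 := mul_mem (mul_mem hxA' (inv_mem h1)) (inv_mem hxA)
      show rest'⁻¹ * δ * rest ∈ A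
      rw [show rest'⁻¹ * δ * rest = xa a' * ((⁅a, u⁆ * (rest * xa a))⁻¹ *
        (⁅a', u⁆ * (rest' * xa a')))⁻¹ * (xa a)⁻¹ by rw [hδ]; group]
      exact h2
    have hδC : δ ∈ MM A u := mul_mem (inv_mem (gen_MM ha')) (gen_MM ha)
    have hδ' : δ * (rest'⁻¹ * rest) ∈ A ⊓ C := by
      have e : rest'⁻¹ * δ = δ * rest'⁻¹ := h.HH_comm hu (inv_mem hR1') hδC
      rwa [e, mul_assoc] at hn0
    have hrr : rest'⁻¹ * rest ∈ HH Q R A u := mul_mem (inv_mem hR1') hR1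
    set k₀ := a'⁻¹ * a with hk0
    have hk0A : k₀ ∈ A := mul_mem (inv_mem ha') ha
    have hk0Q : k₀ ∈ Q := by
      refine h.mem_Q_of_HH hu hnot hk0A ?_
      have e := mulL' a' k₀ u
      rw [show a' * k₀ = a from mul_inv_cancel_left a' a] at e
      set U := ⁅a', ⁅k₀, u⁆⁆ with hU
      have hUU : U ∈ UU A u := gen_UU ha' hk0A
      have e2 : δ = U * ⁅⁅a', u⁆⁻¹, ⁅k₀, u⁆⁆ * ⁅k₀, u⁆ := by
        have c1 : ⁅a', u⁆⁻¹ * U = U * ⁅a', u⁆⁻¹ :=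
          (h.UU_comm hu hUU (inv_mem (gen_MM ha'))).symm
        rw [hδ, e]
        calc ⁅a', u⁆⁻¹ * (U * ⁅k₀, u⁆ * ⁅a', u⁆)
            = (⁅a', u⁆⁻¹ * U) * ⁅k₀, u⁆ * ⁅a', u⁆ := by group
          _ = (U * ⁅a', u⁆⁻¹) * ⁅k₀, u⁆ * ⁅a', u⁆ := by rw [c1]
          _ = _ := by simp only [commutatorElement_def]; group
      have hUR : U * ⁅⁅a', u⁆⁻¹, ⁅k₀, u⁆⁆ ∈ HH Q R A u := mul_mem
        (Subgroup.mem_sup_left (Subgroup.mem_sup_left hUU))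
        (Subgroup.mem_sup_left (Subgroup.mem_sup_right
          (h.CC _ (inv_mem (h.d1C hu a')) _ (h.d1C hu k₀))))
      have hδH : δ ∈ HH Q R A u ⊔ (A ⊓ C) := by
        have := mul_mem (Subgroup.mem_sup_right hδ' : δ * (rest'⁻¹ * rest) ∈
          HH Q R A u ⊔ (A ⊓ C)) (Subgroup.mem_sup_left (inv_mem hrr))
        rwa [mul_inv_cancel_right] at this
      have := mul_mem (Subgroup.mem_sup_left (inv_mem hUR) : _ ∈ HH Q R A u ⊔ (A ⊓ C)) hδH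
      rwa [e2, inv_mul_cancel_left] at this
    have hqi : qi = qi' := by
      rw [← QuotientGroup.out_eq' qi, ← QuotientGroup.out_eq' qi', eq_comm, QuotientGroup.eq,
        Subgroup.mem_subgroupOf]
      exact ⟨hk0A, hk0Q⟩
    subst hqi
    have hδ1 : δ = 1 := inv_mul_cancel _
    rw [hδ1, one_mul] at hδ'
    -- the exponent
    have hZR : ∀ (y r : G), y ∈ A ⊓ Q → r ∈ R → ⁅y, u⁆ * r ∈ G0 Q C R A u := fun y r hy hr =>
      mul_mem (Subgroup.mem_sup_left (Subgroup.mem_sup_left (Subgroup.subset_closure ⟨y, hy, rfl⟩)))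
        (Subgroup.mem_sup_left (Subgroup.mem_sup_right hr))
    have hkk : k = k' := by
      by_contra hne
      have hdiff : (w ^ (k' : ℕ))⁻¹ * w ^ (k : ℕ) ∈ G0 Q C R A u := by
        have c : (w ^ (k' : ℕ))⁻¹ * (⁅y', u⁆ * r')⁻¹ = (⁅y', u⁆ * r')⁻¹ * (w ^ (k' : ℕ))⁻¹ := by
          have : w ^ (k' : ℕ) * (⁅y', u⁆ * r') = ⁅y', u⁆ * r' * w ^ (k' : ℕ) :=
            ((show Commute ⁅y', u⁆ (w ^ (k' : ℕ)) from h.z0_central hu hy'
              (h.MM_le_C hu (h.UU_le_MM hu (pow_mem hwU _)))).mul_left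
              (show Commute r' (w ^ (k' : ℕ)) from h.rC hr'
                (h.MM_le_C hu (h.UU_le_MM hu (pow_mem hwU _))))).symm.eq
          rw [← mul_inv_rev, ← mul_inv_rev, this]
        have c' : (w ^ (k' : ℕ))⁻¹ * (⁅y, u⁆ * r) = ⁅y, u⁆ * r * (w ^ (k' : ℕ))⁻¹ :=
          ((show Commute ⁅y, u⁆ (w ^ (k' : ℕ))⁻¹ from h.z0_central hu hy
              (h.MM_le_C hu (h.UU_le_MM hu (inv_mem (pow_mem hwU _))))).mul_left
              (show Commute r (w ^ (k' : ℕ))⁻¹ from h.rC hr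
                (h.MM_le_C hu (h.UU_le_MM hu (inv_mem (pow_mem hwU _)))))).symm.eq
        have e : (w ^ (k' : ℕ))⁻¹ * w ^ (k : ℕ) =
            (⁅y, u⁆ * r)⁻¹ * (⁅y', u⁆ * r') * (rest'⁻¹ * rest) := by
          rw [hrest, hrest']
          calc (w ^ (k' : ℕ))⁻¹ * w ^ (k : ℕ)
              = (⁅y, u⁆ * r)⁻¹ * ((⁅y, u⁆ * r) * (w ^ (k' : ℕ))⁻¹) * w ^ (k : ℕ) := by group
            _ = (⁅y, u⁆ * r)⁻¹ * ((w ^ (k' : ℕ))⁻¹ * (⁅y, u⁆ * r)) * w ^ (k : ℕ) := by rw [c']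
            _ = (⁅y, u⁆ * r)⁻¹ * (⁅y', u⁆ * r') * ((⁅y', u⁆ * r')⁻¹ * (w ^ (k' : ℕ))⁻¹) *
                (⁅y, u⁆ * r) * w ^ (k : ℕ) := by group
            _ = (⁅y, u⁆ * r)⁻¹ * (⁅y', u⁆ * r') * ((w ^ (k' : ℕ))⁻¹ * (⁅y', u⁆ * r')⁻¹) *
                (⁅y, u⁆ * r) * w ^ (k : ℕ) := by rw [c]
            _ = _ := by group
        rw [e]
        exact mul_mem (mul_mem (inv_mem (hZR y r hy hr)) (hZR y' r' hy' hr'))
          (Subgroup.mem_sup_right hδ')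
      apply hw
      fin_cases k <;> fin_cases k' <;> first
        | exact absurd rfl hne
        | (simp at hdiff; exact hdiff)
    subst hkk
    have hA1 : (⁅y', u⁆ * r')⁻¹ * (⁅y, u⁆ * r) ∈ A := by
      set W := w ^ (k : ℕ) with hW
      have hWC : W ∈ C := h.MM_le_C hu (h.UU_le_MM hu (pow_mem hwU _))
      have c : ∀ (y r : G), y ∈ A ⊓ Q → r ∈ R → ⁅y, u⁆ * r * W = W * (⁅y, u⁆ * r) :=
        fun y r hy hr => ((show Commute ⁅y, u⁆ W from h.z0_central hu hy hWC).mul_left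
          (show Commute r W from h.rC hr hWC)).eq
      have e : rest'⁻¹ * rest = (⁅y', u⁆ * r')⁻¹ * (⁅y, u⁆ * r) := by
        rw [hrest, hrest', c y r hy hr, c y' r' hy' hr']; group
      rw [← e]; exact hδ'.1
    set j := y'⁻¹ * y with hj
    have hjA0 : j ∈ A ⊓ Q := mul_mem (inv_mem hy') hy
    have hj1 : (r'⁻¹ * r) * ⁅j, u⁆ ∈ A := by
      have e := mulL y' j u
      rw [show y' * j = y from mul_inv_cancel_left y' y] at e
      have hc : y' * ⁅j, u⁆ * y'⁻¹ ∈ C := h.conjC y' (h.d1C hu j)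
      have c1 : ⁅y', u⁆⁻¹ * (y' * ⁅j, u⁆ * y'⁻¹) = (y' * ⁅j, u⁆ * y'⁻¹) * ⁅y', u⁆⁻¹ :=
        (show Commute ⁅y', u⁆ (y' * ⁅j, u⁆ * y'⁻¹) from h.z0_central hu hy' hc).inv_left.eq
      have e2 : (⁅y', u⁆ * r')⁻¹ * (⁅y, u⁆ * r) = r'⁻¹ * (y' * ⁅j, u⁆ * y'⁻¹) * r := by
        rw [e]
        calc (⁅y', u⁆ * r')⁻¹ * (y' * ⁅j, u⁆ * y'⁻¹ * ⁅y', u⁆ * r)
            = r'⁻¹ * (⁅y', u⁆⁻¹ * (y' * ⁅j, u⁆ * y'⁻¹)) * ⁅y', u⁆ * r := by group
          _ = _ := by rw [c1]; group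
      rw [e2] at hA1
      have h2 := mul_mem (mul_mem (inv_mem (show y' ∈ A from hy'.1)) hA1) (show y' ∈ A from hy'.1)
      have c2 : y' * r' = r' * y' := (h.Rc r' hr' y' hy'.2).symm
      have c3 : y' * r = r * y' := (h.Rc r hr y' hy'.2).symm
      have c4 : ⁅j, u⁆ * r = r * ⁅j, u⁆ := (h.rC hr (h.d1C hu j)).symm
      have e3 : y'⁻¹ * (r'⁻¹ * (y' * ⁅j, u⁆ * y'⁻¹) * r) * y' = r'⁻¹ * r * ⁅j, u⁆ := by
        calc y'⁻¹ * (r'⁻¹ * (y' * ⁅j, u⁆ * y'⁻¹) * r) * y'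
            = (r' * y')⁻¹ * (y' * ⁅j, u⁆ * y'⁻¹) * (r * y') := by group
          _ = (y' * r')⁻¹ * (y' * ⁅j, u⁆ * y'⁻¹) * (y' * r) := by rw [c2, c3]
          _ = r'⁻¹ * (⁅j, u⁆ * r) := by group
          _ = _ := by rw [c4]; group
      rwa [e3] at h2
    have hqr : qr = qr' := by
      rw [← QuotientGroup.out_eq' qr, ← QuotientGroup.out_eq' qr', eq_comm, QuotientGroup.eq,
        Subgroup.mem_subgroupOf]
      exact ⟨mul_mem (inv_mem hr') hr, j, hjA0, hj1⟩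
    subst hqr
    rw [inv_mul_cancel, one_mul] at hj1
    have hqy : qy = qy' := by
      rw [← QuotientGroup.out_eq' qy, ← QuotientGroup.out_eq' qy', eq_comm, QuotientGroup.eq,
        Subgroup.mem_subgroupOf]
      exact mem_C0.mpr ⟨hjA0.1, fun b hb => by
        rw [show ((qy'.out)⁻¹ * qy.out : (A ⊓ Q : Subgroup G)).1 = j from rfl,
          h.swap_z0 hu hjA0 hb, h.fixA hb hj1]⟩
    subst hqy
    rfl
  have hle := Nat.card_le_card_of_injective F hFinj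
  rw [Nat.card_prod, Nat.card_prod, Nat.card_prod, Nat.card_fin] at hle
  change (A ⊓ Q).relIndex I * (C0.relIndex (A ⊓ Q) * (P.relIndex R * 2)) ≤ C0.relIndex X at hle
  have hIA : I ≤ A := fun a ha => ha.1
  have h1 := Subgroup.relIndex_mul_relIndex ⊥ C0 X bot_le hC0X
  have h2 := Subgroup.relIndex_mul_relIndex ⊥ C0 (A ⊓ Q) bot_le hC0A0
  have h3 := Subgroup.relIndex_mul_relIndex ⊥ (A ⊓ Q) I bot_le (h.A0_le_II hu)
  have h4 := Subgroup.relIndex_mul_relIndex ⊥ I A bot_le hIA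
  simp only [Subgroup.relIndex_bot_left] at h1 h2 h3 h4
  have h5 := h.relIndex_II_le hu
  have hApos : 0 < Nat.card A := Nat.card_pos
  have : Nat.card A * 2 ≤ Nat.card X := by
    rw [← h4, ← h3, ← h2, ← h1]
    calc Nat.card C0 * C0.relIndex (A ⊓ Q) * (A ⊓ Q).relIndex I * I.relIndex A * 2
        ≤ Nat.card C0 * C0.relIndex (A ⊓ Q) * (A ⊓ Q).relIndex I * P.relIndex R * 2 := by
          gcongr
      _ = Nat.card C0 * ((A ⊓ Q).relIndex I * (C0.relIndex (A ⊓ Q) * (P.relIndex R * 2))) := by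
          ring
      _ ≤ _ := Nat.mul_le_mul_left _ hle
  omega

end Cfg

end Cfsg.Agent.JTrans
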